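import Mathlib
import Cfsg.Prelude.Def_Blocks
import Cfsg.Agent.Lib.Helper80.DefOneRow

/-!
# S4503 / piece L3: the orbit of an irreducible character of `C_G(P)` under `N_G(P)`

`P` a Sylow `p`-subgroup of order `p`, `C = C_G(P)`, `N = N_G(P)`.  If `φ₀ ∈ Irr(C)` restricts
to `P` as `φ₀(1) ψ₀` with `ψ₀ ≠ 1` and occurs in `ξ|C` for a character `ξ` of `G`, then the
`|N : C|` distinct `N`-conjugates of `φ₀` all occur in `ξ|C`.
-/

set_option autoImplicit false
set_option linter.unusedSectionVars false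
set_option linter.style.haveILetI false
set_option maxHeartbeats 1000000

namespace Cfsg.Agent.Lib.Helper21.BrL3

open Cfsg
open Cfsg.Agent.Lib.Helper80.DefOneGram Cfsg.Agent.Lib.Helper80.DefOneRow
open scoped ComplexConjugate

universe u
variable {G : Type u} [Group G]

theorem sylow_le_centralizer [Finite G] (p : ℕ) [Fact p.Prime] (P : Sylow p G) (hP : Nat.card P = p) :
    (P : Subgroup G) ≤ Subgroup.centralizer ((P : Subgroup G) : Set G) := by
  intro w hw
  rw [Subgroup.mem_centralizer_iff]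
  intro v hv
  have hc := Cfsg.Agent.Lib.Helper17.BrGrp.isMulCommutative P hP
  have := hc.is_comm.comm (⟨v, hv⟩ : ↥(P : Subgroup G)) ⟨w, hw⟩
  exact congrArg Subtype.val this

/-- [L3] -/
theorem exists_orbit [Finite G] (p : ℕ) [Fact p.Prime] (P : Sylow p G) (hP : Nat.card P = p)
    [Fintype ↥(Subgroup.centralizer ((P : Subgroup G) : Set G))]
    (ξ : G → ℂ) (hξ : IsCharacter G ξ)
    (φ₀ : IrrCharacter ↥(Subgroup.centralizer ((P : Subgroup G) : Set G)))
    (ψ₀ : ↥(P : Subgroup G) →* ℂˣ) (hψ₀ : ψ₀ ≠ 1)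
    (hφ₀ : ∀ (u : ↥(P : Subgroup G)) (c : ↥(Subgroup.centralizer ((P : Subgroup G) : Set G))),
      (c : G) = (u : G) →
      (φ₀ : ↥(Subgroup.centralizer ((P : Subgroup G) : Set G)) → ℂ) c =
        (φ₀ : ↥(Subgroup.centralizer ((P : Subgroup G) : Set G)) → ℂ) 1 * ((ψ₀ u : ℂˣ) : ℂ))
    (hm : classInner (fun c : ↥(Subgroup.centralizer ((P : Subgroup G) : Set G)) => ξ (c : G))
      (φ₀ : ↥(Subgroup.centralizer ((P : Subgroup G) : Set G)) → ℂ) ≠ 0) :
    ∃ S : Finset (IrrCharacter ↥(Subgroup.centralizer ((P : Subgroup G) : Set G))),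
      S.card = (Subgroup.centralizer ((P : Subgroup G) : Set G)).relIndex
        (Subgroup.normalizer ((P : Subgroup G) : Set G)) ∧
      ∀ φ ∈ S,
        classInner (fun c : ↥(Subgroup.centralizer ((P : Subgroup G) : Set G)) => ξ (c : G))
          (φ : ↥(Subgroup.centralizer ((P : Subgroup G) : Set G)) → ℂ) ≠ 0 ∧
        charDegree (φ : ↥(Subgroup.centralizer ((P : Subgroup G) : Set G)) → ℂ) =
          charDegree (φ₀ : ↥(Subgroup.centralizer ((P : Subgroup G) : Set G)) → ℂ) ∧
        ∃ n : G, n ∈ Subgroup.normalizer ((P : Subgroup G) : Set G) ∧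
          ∀ (u u' : ↥(P : Subgroup G)) (c : ↥(Subgroup.centralizer ((P : Subgroup G) : Set G))),
            (c : G) = (u : G) → (u' : G) = n * (u : G) * n⁻¹ →
            (φ : ↥(Subgroup.centralizer ((P : Subgroup G) : Set G)) → ℂ) c =
              (φ₀ : ↥(Subgroup.centralizer ((P : Subgroup G) : Set G)) → ℂ) 1 *
                ((ψ₀ u' : ℂˣ) : ℂ) := by
  classical
  letI : Fintype G := Fintype.ofFinite G
  letI : Fintype ↥(P : Subgroup G) := Fintype.ofFinite _
  have hfin := Cfsg.Agent.Lib.CT.Wedderburn.finite_irrCharacter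
    ↥(Subgroup.centralizer ((P : Subgroup G) : Set G))
  have hPC := sylow_le_centralizer p P hP
  have hcl : IsClassFunction ↥(Subgroup.centralizer ((P : Subgroup G) : Set G))
      (φ₀ : ↥(Subgroup.centralizer ((P : Subgroup G) : Set G)) → ℂ) :=
    Cfsg.Agent.Lib.CT.Orth.irr_isClassFunction φ₀
  have hφ1 : (φ₀ : ↥(Subgroup.centralizer ((P : Subgroup G) : Set G)) → ℂ) 1 ≠ 0 :=
    Cfsg.Agent.Lib.CT.Wedderburn.irr_apply_one_ne_zero φ₀.2
  -- the stabilizer of `φ₀` in the normalizer is the centralizer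
  have hT : ∀ g : G, g ∈ Subgroup.centralizer ((P : Subgroup G) : Set G) ↔
      (g ∈ Subgroup.normalizer ((P : Subgroup G) : Set G) ∧
        ∀ c c' : ↥(Subgroup.centralizer ((P : Subgroup G) : Set G)), (c' : G) = g * c * g⁻¹ →
        (φ₀ : ↥(Subgroup.centralizer ((P : Subgroup G) : Set G)) → ℂ) c' =
          (φ₀ : ↥(Subgroup.centralizer ((P : Subgroup G) : Set G)) → ℂ) c) := by
    intro g
    constructor
    · intro hg
      refine ⟨Subgroup.centralizer_le_normalizer _ hg, fun c c' h => ?_⟩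
      have e : c' = (⟨g, hg⟩ : ↥(Subgroup.centralizer ((P : Subgroup G) : Set G))) * c *
          (⟨g, hg⟩ : ↥(Subgroup.centralizer ((P : Subgroup G) : Set G)))⁻¹ := Subtype.ext h
      rw [e, hcl]
    · rintro ⟨hgN, hst⟩
      refine Cfsg.Agent.Lib.Helper80.AbSylowGT.mem_centralizer_of_stab p P
        (Cfsg.Agent.Lib.Helper17.BrGrp.hfrob P hP) g hgN ψ₀ hψ₀ ?_
      intro w w' hw'
      have h1 := hφ₀ w ⟨(w : G), hPC w.2⟩ rfl
      have h2 := hφ₀ w' ⟨(w' : G), hPC w'.2⟩ rfl
      have h3 := hst ⟨(w : G), hPC w.2⟩ ⟨(w' : G), hPC w'.2⟩ hw'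
      rw [h1, h2] at h3
      have h4 := mul_left_cancel₀ hφ1 h3
      exact Units.ext h4
  have hcard := card_orb_eq P φ₀ (Subgroup.centralizer ((P : Subgroup G) : Set G)) hT
  rw [Subgroup.relIndex_self, Nat.div_one] at hcard
  have hOfin : Set.Finite {ξ' : IrrCharacter ↥(Subgroup.centralizer ((P : Subgroup G) : Set G)) |
      ∃ n : ↥(Subgroup.normalizer ((P : Subgroup G) : Set G)),
        conjTh P (φ₀ : ↥(Subgroup.centralizer ((P : Subgroup G) : Set G)) → ℂ) n =
          (ξ' : ↥(Subgroup.centralizer ((P : Subgroup G) : Set G)) → ℂ)} := Set.toFinite _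
  refine ⟨hOfin.toFinset, ?_, ?_⟩
  · rw [← hcard, ← Set.ncard_eq_toFinset_card _ hOfin]
    rfl
  · intro φ hφ
    rw [Set.Finite.mem_toFinset] at hφ
    obtain ⟨n, hn⟩ := hφ
    refine ⟨?_, ?_, (n : G), n.2, ?_⟩
    · -- multiplicity is preserved
      have hξcl : IsClassFunction G ξ := Cfsg.Agent.Lib.CT.Wedderburn.char_isClassFunction hξ
      have e : classInner (fun c : ↥(Subgroup.centralizer ((P : Subgroup G) : Set G)) => ξ (c : G))
          (φ : ↥(Subgroup.centralizer ((P : Subgroup G) : Set G)) → ℂ) =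
          classInner (fun c : ↥(Subgroup.centralizer ((P : Subgroup G) : Set G)) => ξ (c : G))
          (φ₀ : ↥(Subgroup.centralizer ((P : Subgroup G) : Set G)) → ℂ) := by
        rw [← hn]
        unfold classInner
        congr 1
        refine Fintype.sum_equiv (cjC P n).toEquiv _ _ fun r => ?_
        show ξ (r : G) * conj (conjTh P (φ₀ : ↥(Subgroup.centralizer ((P : Subgroup G) : Set G)) → ℂ) n r) =
          ξ ((cjC P n r : ↥(Subgroup.centralizer ((P : Subgroup G) : Set G))) : G) *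
            conj ((φ₀ : ↥(Subgroup.centralizer ((P : Subgroup G) : Set G)) → ℂ) (cjC P n r))
        rw [cjC_coe, hξcl]
        rfl
      rw [e]
      exact hm
    · rw [← hn]
      unfold charDegree conjTh
      rw [map_one]
    · intro u u' c hc hu'
      rw [← hn]
      show (φ₀ : ↥(Subgroup.centralizer ((P : Subgroup G) : Set G)) → ℂ) (cjC P n c) = _
      refine hφ₀ u' (cjC P n c) ?_
      rw [cjC_coe, hc, hu']

end Cfsg.Agent.Lib.Helper21.BrL3
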