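import Mathlib
import Cfsg.Agent.Lib.Helper80.BTStmt
import Cfsg.Agent.Lib.Helper80.FTRES
import Cfsg.Agent.S4503

/-!
S0997 pieces T1 and G0F (helper21, second seat).  Brauer's bound `p ≤ 2 θ(1) + 1` (landed S4503)
for the faithful characters `θ ∈ Y`; T1: if `θ(1) = e` then `2 θ(1) + 1 = p`.
-/

set_option autoImplicit false

namespace Cfsg.Agent.Lib.Helper21.BTT1

open Cfsg Cfsg.Agent.Lib.Helper80

universe u

/-- Brauer's bound for the members of `Y`. -/
theorem brauer_bound {G : Type u} [Group G] [Finite G] (p q b g₀ : ℕ) (hH : BTStmt.Hyp G p q b g₀)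
    (c : BTStmt.Ctx G p) (hY : BTStmt.YFacts c q g₀) (θ : IrrCharacter G) (hθ : θ ∈ c.Y) :
    p ≤ 2 * charDegree (θ : G → ℂ) + 1 := by
  obtain ⟨hsimple, hncyc, hp, hq, hpq, hcard, hg⟩ := hH
  have hp2 : 2 ≤ p := hp.two_le
  have hg0pos : 0 < g₀ := by
    rcases Nat.eq_zero_or_pos g₀ with h0 | h0
    · rw [h0, mul_zero] at hcard
      exact absurd hcard Nat.card_pos.ne'
    · exact h0
  have hdiv : p ∣ Nat.card G := by
    rw [hcard, mul_assoc]
    exact Dvd.intro _ rfl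
  have hsq : ¬ p ^ 2 ∣ Nat.card G := by
    intro h
    rw [hcard, mul_assoc, pow_two] at h
    have h1 : p ∣ q ^ b * g₀ := (Nat.mul_dvd_mul_iff_left hp.pos).mp h
    rcases (Nat.Prime.dvd_mul hp).mp h1 with h2 | h2
    · exact hpq ((Nat.prime_dvd_prime_iff_eq hp hq).mp (hp.dvd_of_dvd_pow h2))
    · have := Nat.le_of_dvd hg0pos h2
      omega
  have hnn : ∀ H : Subgroup G, H.Normal → Nat.card H ≠ p := by
    intro H hH hc
    rcases hH.eq_bot_or_eq_top with h0 | h0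
    · rw [h0, Subgroup.card_bot] at hc
      omega
    · rw [h0, Subgroup.card_top] at hc
      haveI : Fact p.Prime := ⟨hp⟩
      exact hncyc (isCyclic_of_prime_card hc)
  have hχ : IsCharacter G (θ : G → ℂ) := by
    obtain ⟨n, ρ, -, h⟩ := θ.2
    exact ⟨n, ρ, h⟩
  exact Cfsg.Agent.S4503.result p hp hdiv hsq hnn (θ : G → ℂ) hχ (hY.2 θ hθ).2.2.2

theorem main : BTStmt.T1.{u} := by
  intro G _ _ p q b g₀ hH c hY θ hθ hfe
  have hb := brauer_bound p q b g₀ hH c hY θ hθ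
  obtain ⟨hsimple, hncyc, hp, hq, hpq, hcard, hg⟩ := hH
  haveI : Fact p.Prime := ⟨hp⟩
  have hp2 : 2 ≤ p := hp.two_le
  have hg0pos : 0 < g₀ := by
    rcases Nat.eq_zero_or_pos g₀ with h0 | h0
    · rw [h0, mul_zero] at hcard
      exact absurd hcard Nat.card_pos.ne'
    · exact h0
  have he_dvd : c.e ∣ p - 1 := c.he ▸ Cfsg.Agent.Lib.Helper80.FTRES.relIndex_dvd c.P c.hP
  have hfg : charDegree (θ : G → ℂ) ≤ g₀ := Nat.le_of_dvd hg0pos (hY.2 θ hθ).2.1
  obtain ⟨m, hm⟩ := he_dvd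
  rw [← hfe] at hm
  have hm2 : 2 ≤ m := by
    by_contra hcon
    have hm' : m = 0 ∨ m = 1 := by omega
    rcases hm' with h0 | h0
    · rw [h0, mul_zero] at hm; omega
    · rw [h0, mul_one] at hm; omega
  have h3 : charDegree (θ : G → ℂ) * 2 ≤ charDegree (θ : G → ℂ) * m := Nat.mul_le_mul_left _ hm2
  omega

end Cfsg.Agent.Lib.Helper21.BTT1
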