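import Mathlib
import Cfsg.Agent.Lib.Helper80.BTStmt
import Cfsg.Agent.Lib.Helper21.BTT1

/-!
S0997 piece G0F (helper21, second seat): in type II the members of `Y` have degree `g₀`
(`θ(1) ∣ g₀ < p - 1 ≤ 2 θ(1)` by Brauer's bound).
-/

set_option autoImplicit false

namespace Cfsg.Agent.Lib.Helper21.BTG0F

open Cfsg Cfsg.Agent.Lib.Helper80

universe u

theorem main : BTStmt.G0F.{u} := by
  intro G _ _ p q b g₀ hH c hY hII θ hθ
  have hb := BTT1.brauer_bound p q b g₀ hH c hY θ hθ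
  obtain ⟨hsimple, hncyc, hp, hq, hpq, hcard, hg⟩ := hH
  have hp2 : 2 ≤ p := hp.two_le
  have hg0pos : 0 < g₀ := by
    rcases Nat.eq_zero_or_pos g₀ with h0 | h0
    · rw [h0, mul_zero] at hcard
      exact absurd hcard Nat.card_pos.ne'
    · exact h0
  obtain ⟨m, hm⟩ := (hY.2 θ hθ).2.1
  have hm1 : m = 1 := by
    by_contra hcon
    have hm' : m = 0 ∨ 2 ≤ m := by omega
    rcases hm' with h0 | h0
    · rw [h0, mul_zero] at hm; omega
    · have h3 : charDegree (θ : G → ℂ) * 2 ≤ charDegree (θ : G → ℂ) * m := Nat.mul_le_mul_left _ h0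
      omega
  rw [hm1, mul_one] at hm
  exact hm.symm

end Cfsg.Agent.Lib.Helper21.BTG0F
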