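import Mathlib
import Cfsg.Agent.Lib.Helper20.C320Stmt

set_option autoImplicit false

namespace Cfsg.Agent.Lib.Helper21.C320CARD

open Cfsg.Agent.Lib.Helper20.C320Stmt Cfsg.Agent.Lib.Helper46.SU3Coord

universe u v

section Setup

variable {F : Type*} [Field F] {φ : F →+* F} {C : Type*} [Group C] (K : Coord5 C φ)

theorem lam_ne (x : C) : K.lam x ≠ 0 := by
  intro h
  have := K.lam_rel x
  rw [h, zero_mul] at this
  exact zero_ne_one this

theorem lam_one : K.lam 1 = 1 := by
  have h := K.mul_lam 1 1
  rw [mul_one] at h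
  have h2 : K.lam 1 * 1 = K.lam 1 * K.lam 1 := by rw [mul_one]; exact h
  exact (mul_left_cancel₀ (lam_ne K 1) h2).symm

/-- `lam` as a homomorphism to the units -/
def lamU : C →* Fˣ where
  toFun := fun x => Units.mk0 (K.lam x) (lam_ne K x)
  map_one' := Units.ext (lam_one K)
  map_mul' := fun x y => Units.ext (K.mul_lam x y)

theorem lamU_val (x : C) : ((lamU K x : Fˣ) : F) = K.lam x := rfl

theorem mem_ker_iff (x : C) : x ∈ (lamU K).ker ↔ K.lam x = 1 := by
  rw [MonoidHom.mem_ker]
  constructor
  · intro h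
    have := congrArg Units.val h
    simpa [lamU_val] using this
  · intro h
    exact Units.ext h

/-- the coordinates of helper46 on the subgroup `lam = 1` -/
def coordP : Coord ↥(lamU K).ker φ where
  α := fun x => K.α x.1
  β := fun x => K.β x.1
  mul_α := fun x y => by
    show K.α (x.1 * y.1) = _
    rw [K.mul_α, (mem_ker_iff K y.1).mp y.2, map_one, one_pow, one_mul]
  mul_β := fun x y => by
    show K.β (x.1 * y.1) = _
    rw [K.mul_β, (mem_ker_iff K y.1).mp y.2, map_one, one_pow, one_mul]
  inj := fun x y h1 h2 => Subtype.ext (K.inj _ _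
    (by rw [(mem_ker_iff K x.1).mp x.2, (mem_ker_iff K y.1).mp y.2]) h1 h2)
  rel := fun x => K.rel x.1
  surj := fun a b h => by
    obtain ⟨x, h1, h2, h3⟩ := K.surj 1 a b (by rw [map_one, mul_one]) h
    exact ⟨⟨x, (mem_ker_iff K x).mpr h1⟩, h2, h3⟩

end Setup

section Count

variable {F : Type*} [Field F] [Fintype F] (hF : Fintype.card F = 16) {φ : F →+* F}
  (hφ : ∀ x, φ x = x ^ 4) {C : Type*} [Group C] (K : Coord5 C φ)

include hF hφ in
theorem hinv (x : F) : φ (φ x) = x := by
  rw [hφ, hφ, ← pow_mul]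
  have := FiniteField.pow_card x
  rw [hF] at this
  exact this

include hF hφ in
theorem card_ker : Nat.card ↥(lamU K).ker = 64 := by
  have hF' : Fintype.card F = 4 ^ 2 := by rw [hF]; norm_num
  have := card_eq hF' (coordP K) hφ (hinv hF hφ)
  rw [this]; norm_num

omit [Fintype F] in
include hφ in
theorem range_eq : (lamU K).range = (powMonoidHom 5 : Fˣ →* Fˣ).ker := by
  ext w
  constructor
  · rintro ⟨x, rfl⟩
    rw [MonoidHom.mem_ker, powMonoidHom_apply]
    apply Units.ext
    rw [Units.val_pow_eq_pow_val, lamU_val, Units.val_one]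
    have := K.lam_rel x
    rw [hφ] at this
    rw [pow_succ']
    exact this
  · intro hw
    rw [MonoidHom.mem_ker, powMonoidHom_apply] at hw
    have h1 : (w : F) * φ (w : F) = 1 := by
      rw [hφ, ← pow_succ']
      have := congrArg Units.val hw
      rw [Units.val_pow_eq_pow_val, Units.val_one] at this
      exact this
    obtain ⟨x, h2, -, -⟩ := K.surj (w : F) 0 0 h1 (by simp)
    exact ⟨x, Units.ext h2⟩

include hF hφ in
theorem card_range : Nat.card ↥(lamU K).range = 5 := by
  classical
  have hcardU : Nat.card Fˣ = 15 := by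
    rw [Nat.card_eq_fintype_card, Fintype.card_units, hF]
  rw [range_eq hφ K, IsCyclic.card_powMonoidHom_ker, hcardU]
  rfl

end Count

theorem main : Cfsg.Agent.Lib.Helper20.C320Stmt.CardC.{u, v} := by
  intro F _ _ hF φ hφ C _ _ hK
  obtain ⟨K⟩ := hK
  have h1 : Nat.card C = Nat.card ↥(lamU K).ker * Nat.card ↥(lamU K).range := by
    rw [← Subgroup.index_ker]
    exact (Subgroup.card_mul_index _).symm
  rw [h1, card_ker hF hφ K, card_range hF hφ K]

end Cfsg.Agent.Lib.Helper21.C320CARD
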