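import Mathlib
import Cfsg.Agent.Lib.Helper20.C320Stmt
import Cfsg.Agent.Lib.Helper21.C320CARD

set_option autoImplicit false

namespace Cfsg.Agent.Lib.Helper21.C320PSUB

open Cfsg.Agent.Lib.Helper20.C320Stmt Cfsg.Agent.Lib.Helper46.SU3Coord
  Cfsg.Agent.Lib.Helper21.C320CARD

open scoped commutatorElement

universe u v

section Setup

variable {F : Type*} [Field F] {φ : F →+* F} {C : Type*} [Group C] (K : Coord5 C φ)

theorem lam_inv (x : C) : K.lam x⁻¹ = (K.lam x)⁻¹ := by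
  have h := K.mul_lam x x⁻¹
  rw [mul_inv_cancel, lam_one K] at h
  exact eq_inv_of_mul_eq_one_right h.symm

theorem α_one5 : K.α 1 = 0 := by
  have h := K.mul_α 1 1
  rw [mul_one, lam_one K, map_one, one_pow, one_mul] at h
  linear_combination -h

theorem α_inv5 (x : C) : K.α x⁻¹ = -(φ (K.lam x⁻¹) ^ 3 * K.α x) := by
  have h := K.mul_α x x⁻¹
  rw [mul_inv_cancel, α_one5 K] at h
  linear_combination -h

end Setup

theorem main : Cfsg.Agent.Lib.Helper20.C320Stmt.PSub.{u, v} := by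
  intro F _ _ hF φ hφ C _ _ hK
  obtain ⟨K⟩ := hK
  classical
  have hF' : Fintype.card F = 4 ^ 2 := by rw [hF]; norm_num
  have hinv := hinv hF hφ
  have h2 : (2 : F) = 0 := two_eq_zero_of_card (q := 4) (n := 2) (by norm_num) hF'
  have htr := htr_of hF' hφ hinv
  have hl := hl_of hF' hφ
  refine ⟨(lamU K).ker, MonoidHom.normal_ker _, card_ker hF hφ K, ?_, ?_⟩
  · exact card_center hF' (coordP K) h2 hφ hinv
  · -- a nontrivial fifth root of unity
    obtain ⟨ζ, hζ5, hζ1⟩ : ∃ ζ : F, ζ ^ 5 = 1 ∧ ζ ≠ 1 := by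
      have h5 := card_range hF hφ K
      have hnt : Nontrivial ↥(lamU K).range := by
        rw [← Finite.one_lt_card_iff_nontrivial, h5]; norm_num
      obtain ⟨w, hw⟩ := exists_ne (1 : ↥(lamU K).range)
      have hwk : (w : Fˣ) ∈ (powMonoidHom 5 : Fˣ →* Fˣ).ker := by
        rw [← range_eq hφ K]; exact w.2
      refine ⟨((w : Fˣ) : F), ?_, ?_⟩
      · rw [MonoidHom.mem_ker, powMonoidHom_apply] at hwk
        have := congrArg Units.val hwk
        rw [Units.val_pow_eq_pow_val, Units.val_one] at this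
        exact this
      · intro h
        apply hw
        apply Subtype.ext
        apply Units.ext
        rw [h]; rfl
    have hζ0 : ζ ≠ 0 := by
      intro h; rw [h] at hζ5; norm_num at hζ5
    have hζφ : ζ * φ ζ = 1 := by rw [hφ, ← pow_succ']; exact hζ5
    obtain ⟨x, hx1, hx2, hx3⟩ := K.surj ζ 0 0 hζφ (by simp)
    -- κ = φ(ζ⁻¹)^3 - 1 = ζ^3 - 1 ≠ 0
    have hφinv : φ (ζ⁻¹) = ζ := by
      rw [hφ, inv_pow]
      apply inv_eq_of_mul_eq_one_left
      rw [← pow_succ']; exact hζ5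
    have hκ : ζ ^ 3 - 1 ≠ 0 := by
      intro h
      have h3 : ζ ^ 3 = 1 := by linear_combination h
      apply hζ1
      have h6 : ζ ^ 6 = 1 := by
        have : ζ ^ 6 = (ζ ^ 3) ^ 2 := by ring
        rw [this, h3]; ring
      have : ζ ^ 6 = ζ ^ 5 * ζ := by ring
      rw [this, hζ5, one_mul] at h6
      exact h6
    have hxinvα : K.α x⁻¹ = 0 := by rw [α_inv5 K, hx2]; ring
    have hxinvlam : K.lam x⁻¹ = ζ⁻¹ := by rw [lam_inv K, hx1]
    intro v hv
    have hvlam : K.lam v = 1 := (mem_ker_iff K v).mp hv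
    -- u in P with α u = (ζ^3-1)⁻¹ * α v
    obtain ⟨u, hu⟩ := exists_α (coordP K) htr ((ζ ^ 3 - 1)⁻¹ * K.α v) hinv
    have huα : K.α u.1 = (ζ ^ 3 - 1)⁻¹ * K.α v := hu
    have hulam : K.lam u.1 = 1 := (mem_ker_iff K u.1).mp u.2
    have huinvlam : K.lam (u.1)⁻¹ = 1 := by rw [lam_inv K, hulam, inv_one]
    have huinvα : K.α (u.1)⁻¹ = -K.α u.1 := by
      rw [α_inv5 K, huinvlam, map_one, one_pow, one_mul]
    -- the commutator c
    have hcα : K.α (x * u.1 * x⁻¹ * (u.1)⁻¹) = K.α v := by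
      rw [K.mul_α, K.mul_α, K.mul_α, huinvlam, hxinvlam, hulam, hφinv, hx2, hxinvα, huinvα, huα,
        map_one]
      field_simp
      ring
    have hclam : K.lam (x * u.1 * x⁻¹ * (u.1)⁻¹) = 1 := by
      rw [K.mul_lam, K.mul_lam, K.mul_lam, huinvlam, hxinvlam, hulam, hx1]
      field_simp
    have hcmem : x * u.1 * x⁻¹ * (u.1)⁻¹ ∈ commutator C := by
      have : x * u.1 * x⁻¹ * (u.1)⁻¹ = ⁅x, u.1⁆ := (commutatorElement_def x u.1).symm
      rw [this]
      exact Subgroup.commutator_mem_commutator (Subgroup.mem_top x) (Subgroup.mem_top u.1)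
    -- z = c⁻¹ * v
    set c := x * u.1 * x⁻¹ * (u.1)⁻¹ with hc
    have hcinvlam : K.lam c⁻¹ = 1 := by rw [lam_inv K, hclam, inv_one]
    have hzlam : K.lam (c⁻¹ * v) = 1 := by rw [K.mul_lam, hcinvlam, hvlam, one_mul]
    have hzα : K.α (c⁻¹ * v) = 0 := by
      rw [K.mul_α, hvlam, map_one, one_pow, one_mul, α_inv5 K, hcinvlam, map_one, one_pow,
        one_mul, hcα]
      ring
    have hzP : c⁻¹ * v ∈ (lamU K).ker := (mem_ker_iff K _).mpr hzlam
    have hzcen : (⟨c⁻¹ * v, hzP⟩ : ↥(lamU K).ker) ∈ Subgroup.center ↥(lamU K).ker :=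
      (mem_center_iff (coordP K) hinv htr hl _).mpr hzα
    rw [center_eq_commutator (coordP K) h2 hinv htr hl] at hzcen
    have hzcomm : c⁻¹ * v ∈ commutator C := by
      have h1 : c⁻¹ * v ∈ (commutator ↥(lamU K).ker).map (lamU K).ker.subtype :=
        ⟨⟨c⁻¹ * v, hzP⟩, hzcen, rfl⟩
      rw [Subgroup.map_subtype_commutator] at h1
      exact Subgroup.commutator_mono le_top le_top h1
    have : v = c * (c⁻¹ * v) := by group
    rw [this]
    exact Subgroup.mul_mem _ hcmem hzcomm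

end Cfsg.Agent.Lib.Helper21.C320PSUB
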