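import Mathlib
import Cfsg.Agent.Lib.Helper88.CESStmt
import Cfsg.Agent.Lib.Helper87.FSSat

/-!
S5127 piece CONJC (helper21): if `X ≤ C_S(T)` centralizes `E`, `φ` is a map of `F` on `X` and
`φ(X) ≤ C_S(T)`, then `φ(X)` centralizes `E`.  (From RECV and TRANS.)
-/

set_option autoImplicit false

namespace Cfsg.Agent.Lib.Helper21.CECONJC

open Cfsg Cfsg.FusionSystem Cfsg.Agent.Lib.Helper88 Cfsg.Agent.Lib.Helper88.FCStmt

universe u

theorem main (hRecv : CESStmt.RecvCentral.{u}) (hTrans : CESStmt.TransCentral.{u}) :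
    CESStmt.ConjCentral.{u} := by
  intro Ω _ S _ p _ hS F hsat T E hE X hX hXc φ hφ hφr
  have hTsc : F.StronglyClosed T := hE.1.2.2.2.1
  have hTS : T ≤ S := hTsc.1
  have hR'S : φ.range ≤ S := hφr.trans inf_le_left
  -- a receptive conjugate of `φ(X)`
  obtain ⟨σ, hσ, -, hrec⟩ := Cfsg.Agent.Lib.Helper87.FSSat.exists_far F hsat hR'S
  -- the composite `ρ = σ ∘ φ`
  have hφmem : ∀ x : X, φ x ∈ φ.range := fun x => ⟨x, rfl⟩
  have hρ : σ.comp (φ.codRestrict φ.range hφmem) ∈ F.Hom X := F.comp_mem hφ hσ hφmem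
  have hρσ : (σ.comp (φ.codRestrict φ.range hφmem)).range = σ.range := by
    apply le_antisymm
    · rintro _ ⟨x, rfl⟩
      exact ⟨_, rfl⟩
    · rintro _ ⟨⟨_, ⟨x, rfl⟩⟩, rfl⟩
      exact ⟨x, rfl⟩
  have hρrec : F.IsReceptive (σ.comp (φ.codRestrict φ.range hφmem)).range := by
    rw [hρσ]; exact hrec
  obtain ⟨hX'', hX''c⟩ := hRecv p hS F hsat E hE X hX hXc _ hρ hρrec
  rw [hρσ] at hX'' hX''c
  -- extend `σ` to `φ(X) C_S(φ(X)) ≥ T φ(X)`
  obtain ⟨σ', hσ', hσ'x⟩ := Cfsg.Agent.H85.receptive_extend_sup F hrec hσ rfl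
  have hTcent : T ≤ centralizerIn S φ.range := by
    intro t ht
    refine ⟨hTS ht, ?_⟩
    show t ∈ Subgroup.centralizer (φ.range : Set Ω)
    rw [Subgroup.mem_centralizer_iff]
    intro r hr
    have h1 : r ∈ Subgroup.centralizer (T : Set Ω) := (hφr hr).2
    rw [Subgroup.mem_centralizer_iff] at h1
    exact (h1 t ht).symm
  have hle : T ⊔ φ.range ≤ φ.range ⊔ centralizerIn S φ.range :=
    sup_le (le_sup_of_le_right hTcent) le_sup_left
  have hτ : σ'.comp (Subgroup.inclusion hle) ∈ F.Hom (T ⊔ φ.range) :=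
    Cfsg.Agent.H85.restrict_mem F hσ' hle
  -- `τ` on `φ(X)`
  have hτr : ∀ r : φ.range,
      (σ'.comp (Subgroup.inclusion hle)) (Subgroup.inclusion le_sup_right r) = σ r := by
    intro r
    rw [← hσ'x r]
    rfl
  -- `τ` maps `T` onto `T`
  have hτT : (σ'.comp (Subgroup.inclusion hle)).comp
      (Subgroup.inclusion (le_sup_left : T ≤ T ⊔ φ.range)) ∈ F.Hom T :=
    Cfsg.Agent.H85.restrict_mem F hτ le_sup_left
  have hτTmem := hTsc.2 T le_rfl _ hτT
  have hτTinj := F.injective_of_mem hτT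
  haveI : Finite T := Cfsg.Agent.Lib.Helper87.FSSat.finite_of_le hTS
  have hsurj : Function.Surjective (fun x : T => (⟨_, hτTmem x⟩ : T)) := by
    apply Finite.surjective_of_injective
    intro a b hab
    exact hτTinj (congrArg Subtype.val hab)
  have hrange : T ⊔ σ.range ≤ (σ'.comp (Subgroup.inclusion hle)).range := by
    refine sup_le ?_ ?_
    · intro t ht
      obtain ⟨x, hx⟩ := hsurj ⟨t, ht⟩
      exact ⟨Subgroup.inclusion le_sup_left x, congrArg Subtype.val hx⟩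
    · rintro _ ⟨r, rfl⟩
      exact ⟨Subgroup.inclusion le_sup_right r, hτr r⟩
  -- the inverse of `τ` on `T σ(φ(X))`
  obtain ⟨β, hβ, hβx⟩ := Cfsg.Agent.H85.inv_mem' F hτ hrange
  have hchar : ∀ y : Ω, y ∈ φ.range ↔ ∃ x : ↥(T ⊔ σ.range), (x : Ω) ∈ σ.range ∧ β x = y := by
    intro y
    constructor
    · intro hy
      have hmem : (σ'.comp (Subgroup.inclusion hle)) (Subgroup.inclusion le_sup_right ⟨y, hy⟩) ∈
          T ⊔ σ.range := by
        rw [hτr]
        exact le_sup_right (a := T) ⟨_, rfl⟩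
      refine ⟨⟨_, hmem⟩, ?_, ?_⟩
      · show (σ'.comp (Subgroup.inclusion hle)) (Subgroup.inclusion le_sup_right ⟨y, hy⟩) ∈ σ.range
        rw [hτr]
        exact ⟨_, rfl⟩
      · exact hβx _ hmem
    · rintro ⟨x, ⟨r, hr⟩, rfl⟩
      have hmem : (σ'.comp (Subgroup.inclusion hle)) (Subgroup.inclusion le_sup_right r) ∈
          T ⊔ σ.range := by
        rw [hτr, hr]
        exact x.2
      have hx : x = ⟨_, hmem⟩ := by
        apply Subtype.ext
        show (x : Ω) = (σ'.comp (Subgroup.inclusion hle)) (Subgroup.inclusion le_sup_right r)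
        rw [hτr, hr]
      rw [hx, hβx _ hmem]
      exact r.2
  exact (hTrans p hS F hsat E hE σ.range hX'' hX''c β hβ φ.range hchar).2

end Cfsg.Agent.Lib.Helper21.CECONJC
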