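import Mathlib
import Cfsg.Agent.Lib.Helper60.HJStmt

set_option autoImplicit false

namespace Cfsg.Agent.Lib.Helper21.HJAZSET

universe u

open Cfsg.Agent.Lib.Helper60.HJStmt

theorem sq_of_order2 {G : Type*} [Group G] {x : G} (h : orderOf x = 2) : x * x = 1 := by
  have := pow_orderOf_eq_one x
  rw [h, pow_two] at this
  exact this

theorem ne_one_of_order2 {G : Type*} [Group G] {x : G} (h : orderOf x = 2) : x ≠ 1 := by
  intro h1
  rw [h1, orderOf_one] at h
  omega

theorem order2_of {G : Type*} [Group G] {x : G} (h1 : x * x = 1) (h2 : x ≠ 1) : orderOf x = 2 :=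
  orderOf_eq_prime (by rw [pow_two]; exact h1) h2

theorem inv_of_order2 {G : Type*} [Group G] {x : G} (h : orderOf x = 2) : x⁻¹ = x :=
  inv_eq_of_mul_eq_one_left (sq_of_order2 h)

theorem order2_of_conj {G : Type*} [Group G] {x z : G} (h : IsConj x z) (hz : orderOf z = 2) :
    orderOf x = 2 := by
  obtain ⟨c, hc⟩ := isConj_iff.mp h
  have hx : x = c⁻¹ * z * c := by rw [← hc]; group
  apply order2_of
  · rw [hx]
    calc c⁻¹ * z * c * (c⁻¹ * z * c) = c⁻¹ * (z * z) * c := by group
      _ = 1 := by rw [sq_of_order2 hz]; group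
  · intro h1
    apply ne_one_of_order2 hz
    rw [← hc, h1]; group

/-- powers of an involution -/
theorem pow_order2 {G : Type*} [Group G] {x : G} (h : orderOf x = 2) (n : ℕ) :
    (n % 2 = 0 ∧ x ^ n = 1) ∨ (n % 2 = 1 ∧ x ^ n = x) := by
  have h1 : x ^ n = x ^ (n % 2) := by rw [← h, pow_mod_orderOf]
  rcases Nat.mod_two_eq_zero_or_one n with h0 | h0
  · left; exact ⟨h0, by rw [h1, h0, pow_zero]⟩
  · right; exact ⟨h0, by rw [h1, h0, pow_one]⟩

/-- if an involution `a` inverts `w`, it commutes with every involution power of `w` -/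
theorem comm_of_invert {G : Type*} [Group G] {a w z : G} (hz : orderOf z = 2)
    (hinv : a * w * a⁻¹ = w⁻¹) {n : ℕ} (hn : w ^ n = z) : a * z = z * a := by
  have h1 : a * z * a⁻¹ = z := by
    rw [← hn, ← conj_pow, hinv, inv_pow, hn, inv_of_order2 hz]
  calc a * z = a * z * a⁻¹ * a := by group
    _ = z * a := by rw [h1]

theorem main : Cfsg.Agent.Lib.Helper60.HJStmt.AZSet.{u} := by
  intro G _ _ z t Q K V B hHJ hF4 p
  obtain ⟨x, y⟩ := p
  show (IsConj x z ∧ IsConj y t ∧ ∃ n : ℕ, (x * y) ^ n = z) ↔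
      (x ∈ Q ∧ orderOf x = 2 ∧ x ≠ z ∧ y * z = z * y ∧ orderOf y = 2 ∧ y ∉ Q ∧ x * y ≠ y * x)
  constructor
  · rintro ⟨hx, hy, n, hn⟩
    have hx2 : orderOf x = 2 := order2_of_conj hx hHJ.hz
    have hy2 : orderOf y = 2 := order2_of_conj hy hHJ.ht
    have hxinv := inv_of_order2 hx2
    have hyinv := inv_of_order2 hy2
    have hxx := sq_of_order2 hx2
    have hyy := sq_of_order2 hy2
    have hxyinv : (x * y)⁻¹ = y * x := by rw [mul_inv_rev, hxinv, hyinv]
    have hxz : x * z = z * x := by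
      apply comm_of_invert hHJ.hz _ hn
      rw [hxyinv, hxinv]
      calc x * (x * y) * x = (x * x) * y * x := by group
        _ = y * x := by rw [hxx, one_mul]
    have hyz : y * z = z * y := by
      apply comm_of_invert hHJ.hz _ hn
      rw [hxyinv]
      group
    have hxQ : x ∈ Q := by
      by_contra hxQ
      exact hHJ.hzt (hx.symm.trans (hHJ.hCz x hxz hx2 hxQ))
    have hyQ : y ∉ Q := by
      intro hyQ
      exact hHJ.hzt ((hHJ.hQz y hyQ hy2).symm.trans hy)
    have hcomm_contra : x * y = y * x → False := by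
      intro hc
      have hpow : (x * y) ^ n = x ^ n * y ^ n := (show Commute x y from hc).mul_pow n
      rw [hpow] at hn
      rcases pow_order2 hx2 n with ⟨h0, hxn⟩ | ⟨h0, hxn⟩
      · rcases pow_order2 hy2 n with ⟨h0', hyn⟩ | ⟨h0', hyn⟩
        · rw [hxn, hyn, one_mul] at hn
          exact ne_one_of_order2 hHJ.hz hn.symm
        · omega
      · rcases pow_order2 hy2 n with ⟨h0', hyn⟩ | ⟨h0', hyn⟩
        · omega
        · rw [hxn, hyn] at hn
          apply hyQ
          have : y = x * z := by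
            calc y = (x * x) * y := by rw [hxx, one_mul]
              _ = x * (x * y) := by group
              _ = x * z := by rw [hn]
          rw [this]
          exact Q.mul_mem hxQ hHJ.z_mem
    refine ⟨hxQ, hx2, ?_, hyz, hy2, hyQ, fun hc => hcomm_contra hc⟩
    intro hxeq
    apply hcomm_contra
    rw [hxeq]
    exact hyz.symm
  · rintro ⟨hxQ, hx2, hxz, hyz, hy2, hyQ, hxy⟩
    exact ⟨hHJ.hQz x hxQ hx2, hHJ.hCz y hyz hy2 hyQ,
      hF4 x y hxQ hx2 hxz hyz hy2 hyQ hxy⟩

end Cfsg.Agent.Lib.Helper21.HJAZSET
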