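import Mathlib
import Cfsg.Agent.Lib.Helper60.HJStmt

set_option autoImplicit false

namespace Cfsg.Agent.Lib.Helper21.HJDC

universe u

theorem card_eq_mul_of_fiber' {α β : Type*} [Finite α] [Finite β] (f : α → β) (k : ℕ)
    (h : ∀ b, Nat.card {a // f a = b} = k) : Nat.card α = Nat.card β * k := by
  classical
  have := Fintype.ofFinite β
  rw [← Nat.card_congr (Equiv.sigmaFiberEquiv f), Nat.card_sigma]
  simp [h, Nat.card_eq_fintype_card]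

/-- the number of `k` such that `k u k⁻¹` satisfies `P` is `|C(u)|` times the number of conjugates
of `u` satisfying `P` -/
theorem card_conj_fiber {G : Type*} [Group G] [Finite G] (u : G) (P : G → Prop) :
    Nat.card {k : G // P (k * u * k⁻¹)} =
      Nat.card (Subgroup.centralizer ({u} : Set G)) * Nat.card {y : G // IsConj y u ∧ P y} := by
  classical
  let f : {k : G // P (k * u * k⁻¹)} → {y : G // IsConj y u ∧ P y} := fun k =>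
    ⟨k.1 * u * k.1⁻¹, isConj_iff.mpr ⟨k.1⁻¹, by group⟩, k.2⟩
  rw [card_eq_mul_of_fiber' f (Nat.card (Subgroup.centralizer ({u} : Set G))), mul_comm]
  rintro ⟨y, hy, hP⟩
  obtain ⟨c, hc⟩ := isConj_iff.mp hy
  -- c * y * c⁻¹ = u
  have hy' : y = c⁻¹ * u * c := by rw [← hc]; group
  apply Nat.card_congr
  refine ⟨fun k => ⟨c * k.1.1, ?_⟩, fun d => ⟨⟨c⁻¹ * d.1, ?_⟩, ?_⟩, ?_, ?_⟩
  · rw [Subgroup.mem_centralizer_singleton_iff]
    have h0 : k.1.1 * u * k.1.1⁻¹ = y := congrArg Subtype.val k.2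
    have h1 : k.1.1 * u * k.1.1⁻¹ = c⁻¹ * u * c := h0.trans hy'
    have h2 : c * (k.1.1 * u * k.1.1⁻¹) * c⁻¹ = u := by rw [h1]; group
    have h3 : c * k.1.1 * u = u * (c * k.1.1) := by
      calc c * k.1.1 * u = c * (k.1.1 * u * k.1.1⁻¹) * c⁻¹ * (c * k.1.1) := by group
        _ = u * (c * k.1.1) := by rw [h2]
    exact h3
  · have hd := Subgroup.mem_centralizer_singleton_iff.mp d.2
    have h1 : c⁻¹ * d.1 * u * (c⁻¹ * d.1)⁻¹ = y := by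
      rw [hy']
      calc c⁻¹ * d.1 * u * (c⁻¹ * d.1)⁻¹ = c⁻¹ * (d.1 * u) * d.1⁻¹ * c := by group
        _ = c⁻¹ * (u * d.1) * d.1⁻¹ * c := by rw [hd]
        _ = c⁻¹ * u * c := by group
    rw [h1]; exact hP
  · apply Subtype.ext
    show c⁻¹ * d.1 * u * (c⁻¹ * d.1)⁻¹ = y
    have hd := Subgroup.mem_centralizer_singleton_iff.mp d.2
    rw [hy']
    calc c⁻¹ * d.1 * u * (c⁻¹ * d.1)⁻¹ = c⁻¹ * (d.1 * u) * d.1⁻¹ * c := by group
      _ = c⁻¹ * (u * d.1) * d.1⁻¹ * c := by rw [hd]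
      _ = c⁻¹ * u * c := by group
  · intro k
    apply Subtype.ext
    apply Subtype.ext
    show c⁻¹ * (c * k.1.1) = k.1.1
    group
  · intro d
    apply Subtype.ext
    show c * (c⁻¹ * d.1) = d.1
    group

theorem main : Cfsg.Agent.Lib.Helper60.HJStmt.DC.{u} := by
  intro G _ _ z t
  rw [← card_conj_fiber t (fun y => y * z = z * y), ← card_conj_fiber z (fun x => x * t = t * x)]
  apply Nat.card_congr
  refine ⟨fun k => ⟨k.1⁻¹, ?_⟩, fun k => ⟨k.1⁻¹, ?_⟩, ?_, ?_⟩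
  · have h := k.2
    -- (k t k⁻¹) z = z (k t k⁻¹)  ⟹  (k⁻¹ z k) t = t (k⁻¹ z k)
    show k.1⁻¹ * z * k.1⁻¹⁻¹ * t = t * (k.1⁻¹ * z * k.1⁻¹⁻¹)
    have h' : k.1 * t * k.1⁻¹ * z = z * (k.1 * t * k.1⁻¹) := h
    calc k.1⁻¹ * z * k.1⁻¹⁻¹ * t = k.1⁻¹ * (z * (k.1 * t * k.1⁻¹)) * k.1 := by group
      _ = k.1⁻¹ * (k.1 * t * k.1⁻¹ * z) * k.1 := by rw [h']
      _ = t * (k.1⁻¹ * z * k.1⁻¹⁻¹) := by group
  · have h := k.2
    show k.1⁻¹ * t * k.1⁻¹⁻¹ * z = z * (k.1⁻¹ * t * k.1⁻¹⁻¹)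
    have h' : k.1 * z * k.1⁻¹ * t = t * (k.1 * z * k.1⁻¹) := h
    calc k.1⁻¹ * t * k.1⁻¹⁻¹ * z = k.1⁻¹ * (t * (k.1 * z * k.1⁻¹)) * k.1 := by group
      _ = k.1⁻¹ * (k.1 * z * k.1⁻¹ * t) * k.1 := by rw [h']
      _ = z * (k.1⁻¹ * t * k.1⁻¹⁻¹) := by group
  · intro k; apply Subtype.ext; show k.1⁻¹⁻¹ = k.1; group
  · intro k; apply Subtype.ext; show k.1⁻¹⁻¹ = k.1; group

end Cfsg.Agent.Lib.Helper21.HJDC
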