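import Mathlib
import Cfsg.Agent.Lib.Helper60.HJStmt

set_option autoImplicit false

namespace Cfsg.Agent.Lib.Helper21.HJF4

universe u

open Cfsg.Agent.Lib.Helper60.HJStmt

theorem sq_of_order2 {G : Type*} [Group G] {x : G} (h : orderOf x = 2) : x * x = 1 := by
  have := pow_orderOf_eq_one x
  rw [h, pow_two] at this
  exact this

theorem ne_one_of_order2 {G : Type*} [Group G] {x : G} (h : orderOf x = 2) : x ≠ 1 := by
  intro h1
  rw [h1, orderOf_one] at h
  omega

theorem order2_of {G : Type*} [Group G] {x : G} (h1 : x * x = 1) (h2 : x ≠ 1) : orderOf x = 2 :=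
  orderOf_eq_prime (by rw [pow_two]; exact h1) h2

theorem inv_of_order2 {G : Type*} [Group G] {x : G} (h : orderOf x = 2) : x⁻¹ = x :=
  inv_eq_of_mul_eq_one_left (sq_of_order2 h)

theorem main : Cfsg.Agent.Lib.Helper60.HJStmt.F4.{u} := by
  intro G _ _ z t Q K V B hHJ hno x y hxQ hx hxz hyz hy hyQ hxy
  have hxx := sq_of_order2 hx
  have hyy := sq_of_order2 hy
  have hyinv := inv_of_order2 hy
  have hzz := sq_of_order2 hHJ.hz
  -- x' = y x y⁻¹ ∈ Q
  have hx'Q : y * x * y⁻¹ ∈ Q := hHJ.Q_norm y hyz x hxQ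
  have hx'sq : (y * x * y⁻¹) * (y * x * y⁻¹) = 1 := by
    calc (y * x * y⁻¹) * (y * x * y⁻¹) = y * (x * x) * y⁻¹ := by group
      _ = 1 := by rw [hxx]; group
  have hx'ne : y * x * y⁻¹ ≠ 1 := by
    intro h
    apply ne_one_of_order2 hx
    calc x = y⁻¹ * (y * x * y⁻¹) * y := by group
      _ = 1 := by rw [h]; group
  have hx' : orderOf (y * x * y⁻¹) = 2 := order2_of hx'sq hx'ne
  have hsq : (x * y) ^ 2 = x * (y * x * y⁻¹) := by
    rw [hyinv, pow_two]; group
  rcases hHJ.Q_comm x hxQ (y * x * y⁻¹) hx'Q with hc | hc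
  · rcases hno x (y * x * y⁻¹) hxQ hx'Q hx hx' hc with h | h | h | h
    · exact absurd h hxz
    · -- y x y⁻¹ = z → x = z
      exfalso
      apply hxz
      calc x = y⁻¹ * (y * x * y⁻¹) * y := by group
        _ = y⁻¹ * z * y := by rw [h]
        _ = y⁻¹ * (z * y) := by group
        _ = y⁻¹ * (y * z) := by rw [hyz]
        _ = z := by group
    · -- y x y⁻¹ = x → commute
      exfalso
      apply hxy
      calc x * y = (y * x * y⁻¹) * y := by rw [h]
        _ = y * x := by group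
    · refine ⟨2, ?_⟩
      rw [hsq, h, ← mul_assoc, hxx, one_mul]
  · refine ⟨4, ?_⟩
    have h4 : (x * y) ^ 4 = ((x * y) ^ 2) ^ 2 := by rw [← pow_mul]
    rw [h4, hsq, pow_two]
    calc x * (y * x * y⁻¹) * (x * (y * x * y⁻¹))
        = z * ((y * x * y⁻¹) * x) * (x * (y * x * y⁻¹)) := by rw [hc]
      _ = z * ((y * x * y⁻¹) * (x * x) * (y * x * y⁻¹)) := by group
      _ = z * ((y * x * y⁻¹) * (y * x * y⁻¹)) := by rw [hxx, mul_one]
      _ = z := by rw [hx'sq, mul_one]

end Cfsg.Agent.Lib.Helper21.HJF4
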