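import Mathlib
import Cfsg.Agent.Lib.Helper27.McStmt

set_option autoImplicit false

namespace Cfsg.Agent.Lib.Helper21.McEQV

open Cfsg.Agent.Lib.Helper27

theorem J_apply' (i j : Fin 4 ⊕ Fin 4) :
    Matrix.J (Fin 4) (ZMod 2) i j = if j = i.swap then 1 else 0 := by
  have hneg : (-1 : ZMod 2) = 1 := by decide
  rcases i with a | a <;> rcases j with c | c
  · simp [Matrix.J]
  · by_cases h : a = c
    · subst h
      simp [Matrix.J, hneg]
    · have h' : ¬ c = a := fun h2 => h h2.symm
      simp [Matrix.J, h, h']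
  · by_cases h : a = c
    · subst h
      simp [Matrix.J]
    · have h' : ¬ c = a := fun h2 => h h2.symm
      simp [Matrix.J, h, h']
  · simp [Matrix.J]

theorem main : McStmt.Eqv := by
  intro C R _ _ B b hinv hsymm hexp g x i
  have h1 : B (b i.swap) (g • x) = B (g⁻¹ • b i.swap) x := by
    have := hinv g⁻¹ (b i.swap) (g • x)
    rw [inv_smul_smul] at this
    exact this.symm
  rw [h1, hexp (g⁻¹ • b i.swap) x]
  apply Finset.sum_congr rfl
  intro k _
  rw [Finset.sum_eq_single k.swap]
  · rw [J_apply', if_pos rfl, mul_one]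
    congr 1
    have := hinv g (b k) (g⁻¹ • b i.swap)
    rw [smul_inv_smul] at this
    rw [← this, hsymm]
  · intro l _ hl
    rw [J_apply', if_neg hl, mul_zero, zero_mul]
  · intro h; exact absurd (Finset.mem_univ _) h

end Cfsg.Agent.Lib.Helper21.McEQV
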