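import Mathlib
import Cfsg.Agent.Lib.Helper27.McStmt
import Cfsg.Agent.Lib.Helper43.SLCard
import Cfsg.Agent.S0256

set_option autoImplicit false

namespace Cfsg.Agent.Lib.Helper21.McNSDC

open Cfsg.Agent.Lib.Helper27

theorem main : McStmt.Nsdc := by
  intro G _ _ s h28 hs1 hss ψ hsurj hker hy
  classical
  have hF : Fintype.card (ZMod 2) = 2 := ZMod.card 2
  have hc := Cfsg.Agent.Lib.Helper43.SLCard.center_SL_eq_bot_of_card_two hF 4
  obtain ⟨e0⟩ : Nonempty (Matrix.ProjectiveSpecialLinearGroup (Fin 4) (ZMod 2) ≃* McStmt.SL4) :=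
    ⟨(QuotientGroup.quotientMulEquivOfEq hc).trans QuotientGroup.quotientBot⟩
  obtain ⟨eA⟩ := Cfsg.Agent.S0256.result hF
  have hcardSL : Nat.card McStmt.SL4 = 20160 := by
    rw [← Nat.card_congr e0.toEquiv]; exact Cfsg.Agent.Lib.Helper43.SLCard.card_PSL4 hF
  haveI : Fact (Nat.Prime 2) := ⟨Nat.prime_two⟩
  have hord : orderOf s = 2 := orderOf_eq_prime (by rw [pow_two]; exact hss) hs1
  have hsC : s ∈ Subgroup.centralizer ({s} : Set G) := by
    rw [Subgroup.mem_centralizer_singleton_iff]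
  obtain ⟨s', hs'⟩ : ∃ s' : ↥(Subgroup.centralizer ({s} : Set G)), (s' : G) = s := ⟨⟨s, hsC⟩, rfl⟩
  have hs'1 : s' ≠ 1 := by
    intro h; apply hs1; rw [← hs', h]; rfl
  have hs'c : s' ∈ Subgroup.center ↥(Subgroup.centralizer ({s} : Set G)) := by
    rw [Subgroup.mem_center_iff]
    intro g
    apply Subtype.ext
    show (g : G) * (s' : G) = (s' : G) * g
    rw [hs']
    exact Subgroup.mem_centralizer_singleton_iff.1 g.2
  have hs's' : s' * s' = 1 := by
    apply Subtype.ext
    show (s' : G) * (s' : G) = 1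
    rw [hs']; exact hss
  have hcent : ∀ z ∈ Subgroup.center ↥(Subgroup.centralizer ({s} : Set G)), ψ z = 1 := by
    intro z hz
    have : ψ z ∈ Subgroup.center McStmt.SL4 := by
      rw [Subgroup.mem_center_iff]
      intro h
      obtain ⟨g, rfl⟩ := hsurj h
      rw [← map_mul, ← map_mul, (Subgroup.mem_center_iff.1 hz g)]
    rw [hc] at this
    exact Subgroup.mem_bot.1 this
  have hs'N : s' ∈ ψ.ker := MonoidHom.mem_ker.2 (hcent s' hs'c)
  have hNp : IsPGroup 2 ψ.ker := by
    intro g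
    obtain ⟨k, hk⟩ := hker g.1 (MonoidHom.mem_ker.1 g.2)
    exact ⟨k, Subtype.ext (by simpa using hk)⟩
  obtain ⟨m, hm⟩ := hNp.exists_card_eq
  have hcardC : Nat.card ↥(Subgroup.centralizer ({s} : Set G)) = Nat.card ψ.ker * 20160 := by
    have h1 := Subgroup.card_eq_card_quotient_mul_card_subgroup ψ.ker
    have h2 : Nat.card (↥(Subgroup.centralizer ({s} : Set G)) ⧸ ψ.ker) = 20160 := by
      rw [Nat.card_congr (QuotientGroup.quotientKerEquivOfSurjective ψ hsurj).toEquiv]
      exact hcardSL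
    rw [h1, h2, mul_comm]
  have hdvd : Nat.card ↥(Subgroup.centralizer ({s} : Set G)) ∣ Nat.card G :=
    Subgroup.card_subgroup_dvd_card _
  have hm1 : m ≤ 1 := by
    by_contra hcon
    push_neg at hcon
    apply h28
    have h8 : 2 ^ 8 ∣ Nat.card ↥(Subgroup.centralizer ({s} : Set G)) := by
      rw [hcardC, hm]
      have e8 : (2 : ℕ) ^ 8 = 2 ^ 2 * 2 ^ 6 := by norm_num
      rw [e8]
      exact Nat.mul_dvd_mul (pow_dvd_pow 2 hcon) (by decide)
    exact h8.trans hdvd
  have hNcard : Nat.card ψ.ker = 2 := by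
    have h2 : 1 < Nat.card ψ.ker := by
      rw [Finite.one_lt_card_iff_nontrivial]
      exact ⟨⟨⟨s', hs'N⟩, 1, fun h => hs'1 (congrArg Subtype.val h)⟩⟩
    have h3 : Nat.card ψ.ker ≤ 2 := by
      rw [hm]
      calc 2 ^ m ≤ 2 ^ 1 := Nat.pow_le_pow_right (by norm_num) hm1
        _ = 2 := by norm_num
    omega
  have hNmem : ∀ g ∈ ψ.ker, g = 1 ∨ g = s' := by
    intro g hg
    obtain ⟨y0, hy0, huniq⟩ := (Nat.card_eq_two_iff' (1 : ψ.ker)).1 hNcard
    by_cases hg1 : g = 1
    · exact Or.inl hg1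
    · right
      have e1 : (⟨g, hg⟩ : ψ.ker) = y0 := huniq _ (fun h => hg1 (congrArg Subtype.val h))
      have e2 : (⟨s', hs'N⟩ : ψ.ker) = y0 := huniq _ (fun h => hs'1 (congrArg Subtype.val h))
      exact congrArg Subtype.val (e1.trans e2.symm)
  have hZN : Subgroup.center ↥(Subgroup.centralizer ({s} : Set G)) = ψ.ker := by
    apply le_antisymm
    · intro z hz; exact MonoidHom.mem_ker.2 (hcent z hz)
    · intro g hg
      rcases hNmem g hg with rfl | rfl
      · exact Subgroup.one_mem _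
      · exact hs'c
  refine ⟨hord, ?_, ?_, ?_⟩
  · rw [hZN]; exact hNcard
  · exact ⟨(QuotientGroup.quotientMulEquivOfEq hZN).trans
      ((QuotientGroup.quotientKerEquivOfSurjective ψ hsurj).trans (e0.symm.trans eA))⟩
  · intro L hL
    obtain ⟨y, hy⟩ := hy
    have huniv := Subgroup.IsComplement.mul_eq hL
    obtain ⟨z, hz, l, hl, hzl⟩ := Set.eq_univ_iff_forall.1 huniv y
    have hz' : z ∈ Subgroup.center ↥(Subgroup.centralizer ({s} : Set G)) := hz
    have hz2 : z * z = 1 := by
      have hzN : z ∈ ψ.ker := by rw [← hZN]; exact hz'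
      rcases hNmem z hzN with rfl | rfl
      · simp
      · exact hs's'
    have hyy : y * y = s' := by
      apply Subtype.ext
      show (y : G) * (y : G) = (s' : G)
      rw [hs']; exact hy
    have hzc : ∀ g : ↥(Subgroup.centralizer ({s} : Set G)), g * z = z * g :=
      Subgroup.mem_center_iff.1 hz'
    have hl2 : l * l = s' := by
      rw [← hyy, ← hzl]
      calc l * l = (z * z) * (l * l) := by rw [hz2, one_mul]
        _ = z * (z * l) * l := by group
        _ = z * (l * z) * l := by rw [hzc l]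
        _ = (z * l) * (z * l) := by group
    have hs'L : s' ∈ L := by rw [← hl2]; exact L.mul_mem hl hl
    exact hs'1 (Subgroup.disjoint_def.1 hL.disjoint hs'c hs'L)

end Cfsg.Agent.Lib.Helper21.McNSDC
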