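import Mathlib
import Cfsg.Agent.Lib.Helper27.McStmt

set_option autoImplicit false

namespace Cfsg.Agent.Lib.Helper21.McNsBase

/-- being a non-split double cover is invariant under isomorphism of the covering group -/
theorem nonsplit_congr {H H' K : Type*} [Group H] [Group H'] [Group K] (f : H ≃* H')
    (h : Cfsg.IsNonsplitDoubleCover H K) : Cfsg.IsNonsplitDoubleCover H' K := by
  obtain ⟨hcard, ⟨e⟩, hns⟩ := h
  have hmap : (Subgroup.center H).map (f : H →* H') = Subgroup.center H' := by
    ext y
    rw [Subgroup.mem_map, Subgroup.mem_center_iff]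
    constructor
    · rintro ⟨x, hx, rfl⟩ g'
      rw [Subgroup.mem_center_iff] at hx
      have := congrArg f (hx (f.symm g'))
      simpa using this
    · intro hy
      refine ⟨f.symm y, ?_, by simp⟩
      rw [Subgroup.mem_center_iff]
      intro g
      apply f.injective
      simpa using hy (f g)
  refine ⟨?_, ⟨(QuotientGroup.congr (Subgroup.center H) (Subgroup.center H') f hmap).symm.trans e⟩,
    ?_⟩
  · rw [← hcard]; exact Nat.card_congr (Subgroup.centerCongr f).symm.toEquiv
  · intro L' hL'
    apply hns (L'.comap (f : H →* H'))
    apply Subgroup.isComplement'_of_disjoint_and_mul_eq_univ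
    · rw [Subgroup.disjoint_def]
      intro x hxZ hxL
      have h1 : f x ∈ Subgroup.center H' := by
        rw [← hmap]; exact Subgroup.mem_map_of_mem _ hxZ
      have h2 : f x ∈ L' := hxL
      have := Subgroup.disjoint_def.1 hL'.disjoint h1 h2
      simpa using this
    · rw [Set.eq_univ_iff_forall]
      intro g
      have huniv := Subgroup.IsComplement.mul_eq hL'
      obtain ⟨z', hz', l', hl', hzl⟩ := Set.eq_univ_iff_forall.1 huniv (f g)
      refine Set.mem_mul.2 ⟨f.symm z', ?_, f.symm l', ?_, ?_⟩
      · have hz'' : z' ∈ Subgroup.center H' := hz'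
        rw [← hmap] at hz''
        obtain ⟨x, hx, rfl⟩ := hz''
        simpa using hx
      · show f (f.symm l') ∈ L'
        simpa using hl'
      · apply f.injective
        simpa using hzl

/-- the centralizer of the image of an element under an isomorphism -/
def centEquiv {A B : Type*} [Group A] [Group B] (e : A ≃* B) (t : A) :
    ↥(Subgroup.centralizer ({t} : Set A)) ≃* ↥(Subgroup.centralizer ({e t} : Set B)) where
  toFun g := ⟨e g, by
    rw [Subgroup.mem_centralizer_singleton_iff, ← map_mul, ← map_mul]
    exact congrArg e (Subgroup.mem_centralizer_singleton_iff.1 g.2)⟩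
  invFun h := ⟨e.symm h, by
    rw [Subgroup.mem_centralizer_singleton_iff]
    apply e.injective
    rw [map_mul, map_mul, e.apply_symm_apply]
    exact Subgroup.mem_centralizer_singleton_iff.1 h.2⟩
  left_inv g := Subtype.ext (e.symm_apply_apply g)
  right_inv h := Subtype.ext (e.apply_symm_apply h)
  map_mul' g h := Subtype.ext (map_mul e g.1 h.1)

end Cfsg.Agent.Lib.Helper21.McNsBase
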