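import Mathlib
import Cfsg.Agent.Lib.Helper27.McStmt
import Cfsg.Agent.Lib.Helper21.McNsBase

set_option autoImplicit false

namespace Cfsg.Agent.Lib.Helper21.McTRANSB

open Cfsg.Agent.Lib.Helper27
open Cfsg.Agent.Lib.Helper21.McNsBase

theorem main : McStmt.TransB := by
  intro A B _ _ ⟨e⟩ ⟨t, ht, hns⟩
  refine ⟨e t, by rw [MulEquiv.orderOf_eq]; exact ht, ?_⟩
  exact nonsplit_congr (centEquiv e t) hns

end Cfsg.Agent.Lib.Helper21.McTRANSB
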