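import Mathlib
import Cfsg.Prelude.Def_Local
import Cfsg.Agent.Lib.Helper21.Bender1

set_option autoImplicit false

/-!
Minimal normal subgroups and components (Kurzweil–Stellmacher 6.5 / 10.1): the normal closure of a
centre-free component is a minimal normal subgroup; if `F(G) = 1` then `E(G)` is the product of
the minimal normal subgroups; primitive subgroups meeting `F*(N)`, `N ⊴ G`.
-/

namespace Cfsg.Agent.Lib.Helper21.MinNormal

open Subgroup
open Cfsg.Agent.Lib.Helper21
open Cfsg.Agent.Lib.Helper33.Conj
open Cfsg.Agent.Lib.Helper78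

universe u

set_option linter.unusedSectionVars false

variable {G : Type u} [Group G] [Finite G]

theorem normalClosure_eq_iSup (K : Subgroup G) :
    normalClosure (K : Set G) = ⨆ g : G, K.map (MulAut.conj g).toMonoidHom := by
  apply le_antisymm
  · have hn : (⨆ g : G, K.map (MulAut.conj g).toMonoidHom).Normal := by
      constructor
      intro n hn h
      have hle : (⨆ g : G, K.map (MulAut.conj g).toMonoidHom) ≤
          (⨆ g : G, K.map (MulAut.conj g).toMonoidHom).comap (MulAut.conj h).toMonoidHom := by
        apply iSup_le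
        intro g
        rw [← map_le_iff_le_comap, cj_cj]
        exact le_iSup (fun g : G => K.map (MulAut.conj g).toMonoidHom) (h * g)
      have := hle hn
      rwa [mem_comap, MulEquiv.coe_toMonoidHom, MulAut.conj_apply] at this
    apply normalClosure_le_normal
    intro x hx
    have h1 := le_iSup (fun g : G => K.map (MulAut.conj g).toMonoidHom) 1
    simp only [cj_one] at h1
    exact h1 hx
  · apply iSup_le
    intro g x hx
    rw [mem_cj] at hx
    have hN : (normalClosure (K : Set G)).Normal := normalClosure_normal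
    have := hN.conj_mem _ (le_normalClosure hx) g
    simpa [mul_assoc] using this

/-- The normal closure of a centre-free component has trivial centre. -/
theorem normalClosure_inf_centralizer (K : Subgroup G) (hK : Cfsg.IsComponent K)
    (hZ : center ↥K = ⊥) :
    normalClosure (K : Set G) ⊓ centralizer (normalClosure (K : Set G) : Set G) = ⊥ := by
  classical
  have := Fintype.ofFinite G
  rw [eq_bot_iff]
  intro z hz
  obtain ⟨hzN, hzC⟩ := mem_inf.1 hz
  obtain ⟨f, hf⟩ : ∃ f : G → Subgroup G, f = fun g => K.map (MulAut.conj g).toMonoidHom :=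
    ⟨_, rfl⟩
  obtain ⟨s, hs⟩ : ∃ s : Finset (Subgroup G), s = Finset.univ.image f := ⟨_, rfl⟩
  have hsup : s.sup id = normalClosure (K : Set G) := by
    rw [normalClosure_eq_iSup, hs, Finset.sup_image, Function.id_comp, Finset.sup_univ_eq_iSup,
      hf]
  have hmem_s : ∀ A ∈ s, ∃ g, A = K.map (MulAut.conj g).toMonoidHom := by
    intro A hA
    rw [hs] at hA
    obtain ⟨g, -, rfl⟩ := Finset.mem_image.1 hA
    exact ⟨g, by rw [hf]⟩
  have key := Layer.central_decomp s (by
      intro A hA B hB hne a ha b hb
      obtain ⟨g, rfl⟩ := hmem_s A hA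
      obtain ⟨h, rfl⟩ := hmem_s B hB
      have hc := Comp.components_commute _ _ (LBal.isComponent_cj g hK)
        (LBal.isComponent_cj h hK) hne
      rw [commutator_eq_bot_iff_le_centralizer] at hc
      exact (mem_centralizer_iff.1 (hc ha) b hb).symm)
    z (by rw [hsup]; exact hzN) (by
      intro A hA a ha
      obtain ⟨g, rfl⟩ := hmem_s A hA
      have haN : a ∈ normalClosure (K : Set G) := by
        rw [normalClosure_eq_iSup]
        exact le_iSup (fun g : G => K.map (MulAut.conj g).toMonoidHom) g ha
      exact mem_centralizer_iff.1 hzC a haN)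
  have hbot : s.sup (fun A => A ⊓ centralizer (A : Set G)) = ⊥ := by
    rw [Finset.sup_eq_bot_iff]
    intro A hA
    obtain ⟨g, rfl⟩ := hmem_s A hA
    rw [centralizer_cj, ← cj_inf, ← Layer.map_center_subtype, hZ, Subgroup.map_bot, Subgroup.map_bot]
  rw [hbot] at key
  exact key

/-- The normal closure of a centre-free component is a minimal normal subgroup. -/
theorem normalClosure_minimal (K : Subgroup G) (hK : Cfsg.IsComponent K) (hZ : center ↥K = ⊥) :
    normalClosure (K : Set G) ≠ ⊥ ∧ ∀ N : Subgroup G, N.Normal →
      N ≤ normalClosure (K : Set G) → N = ⊥ ∨ N = normalClosure (K : Set G) := by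
  constructor
  · intro h
    have h1 : K ≤ normalClosure (K : Set G) := le_normalClosure
    rw [h] at h1
    exact Comp.ne_bot_of_quasisimple hK.2 (le_bot_iff.1 h1)
  · intro N hN hle
    rcases Comp.component_normal_cases K N hK hN with h | h
    · right
      exact le_antisymm hle (normalClosure_le_normal h)
    · left
      rw [commutator_eq_bot_iff_le_centralizer] at h
      have hcn : (centralizer (N : Set G)).Normal := inferInstance
      have h2 : normalClosure (K : Set G) ≤ centralizer (N : Set G) := normalClosure_le_normal h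
      have h3 : N ≤ centralizer (normalClosure (K : Set G) : Set G) := le_centralizer_iff.1 h2
      rw [eq_bot_iff, ← normalClosure_inf_centralizer K hK hZ]
      exact le_inf hle h3

/-- If `F(G) = 1`, components have trivial centre. -/
theorem center_component_eq_bot (hF : Cfsg.fittingSubgroup G = ⊥) (K : Subgroup G)
    (hK : Cfsg.IsComponent K) : center ↥K = ⊥ := by
  have hcn : (center ↥K).Normal := inferInstance
  have hsub : ((center ↥K).map K.subtype).IsSubnormal := hcn.isSubnormal.trans' hK.1
  have hnil : Group.IsNilpotent ((center ↥K).map K.subtype) := by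
    apply FStar.isNilpotent_of_commutator_eq_bot
    rw [commutator_eq_bot_iff_le_centralizer, Layer.map_center_subtype]
    intro a ha
    rw [mem_centralizer_iff]
    intro b hb
    exact (mem_centralizer_iff.1 (mem_inf.1 ha).2 b (mem_inf.1 hb).1)
  have h := FStar.subnormal_nilpotent_le_fitting _ hsub hnil
  rw [hF] at h
  exact (map_eq_bot_iff_of_injective _ K.subtype_injective).1 (le_bot_iff.1 h)

/-- A normal subgroup meeting `E(G)` trivially is trivial when `F(G) = 1`. -/
theorem eq_bot_of_inf_layer (hF : Cfsg.fittingSubgroup G = ⊥) (N : Subgroup G) [hN : N.Normal]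
    (h : N ⊓ Cfsg.layer G = ⊥) : N = ⊥ := by
  have hEn := Layer.layer_normal G
  have hcomm : N ≤ centralizer (Cfsg.layer G : Set G) := by
    rw [← commutator_eq_bot_iff_le_centralizer, eq_bot_iff, ← h]
    exact commutator_le_inf N (Cfsg.layer G)
  have hg : Cfsg.generalizedFittingSubgroup G = Cfsg.layer G := by
    unfold Cfsg.generalizedFittingSubgroup
    rw [hF, sup_bot_eq]
  rw [← hg] at hcomm
  have := hcomm.trans Bender1.centralizer_gfs_le_fitting
  rw [hF] at this
  exact le_bot_iff.1 this

/-- If `F(G) = 1` then `E(G)` is generated by the minimal normal subgroups. -/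
theorem sSup_minimal_eq_layer (hF : Cfsg.fittingSubgroup G = ⊥) :
    sSup {N : Subgroup G | N ≠ ⊥ ∧ N.Normal ∧
      ∀ N' : Subgroup G, N'.Normal → N' ≤ N → N' = ⊥ ∨ N' = N} = Cfsg.layer G := by
  apply le_antisymm
  · apply sSup_le
    rintro N ⟨hN1, hNn, hmin⟩
    have hEn := Layer.layer_normal G
    have hinf : (N ⊓ Cfsg.layer G).Normal := inferInstance
    rcases hmin _ hinf inf_le_left with h | h
    · exact absurd (eq_bot_of_inf_layer hF N h) hN1
    · exact inf_eq_left.1 h
  · apply sSup_le
    intro K hK
    have hZ := center_component_eq_bot hF K hK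
    obtain ⟨h1, h2⟩ := normalClosure_minimal K hK hZ
    exact le_trans le_normalClosure (le_sSup ⟨h1, normalClosure_normal, h2⟩)

/-- `F*(N) ≤ F*(G)` for `N ⊴ G`. -/
theorem gfs_map_le (N : Subgroup G) [hN : N.Normal] :
    (Cfsg.generalizedFittingSubgroup ↥N).map N.subtype ≤ Cfsg.generalizedFittingSubgroup G := by
  unfold Cfsg.generalizedFittingSubgroup
  rw [Subgroup.map_sup]
  apply sup_le_sup
  · rw [map_le_iff_le_comap]
    apply sSup_le
    intro L hL
    rw [← map_le_iff_le_comap]
    exact Layer.le_layer (Comp.isComponent_map_subtype hN.isSubnormal hL)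
  · have hc := Layer.fitting_characteristic ↥N
    have hn : ((Cfsg.fittingSubgroup ↥N).map N.subtype).Normal := inferInstance
    have hnil : Group.IsNilpotent (Cfsg.fittingSubgroup ↥N) := Fitting.fitting_isNilpotent
    have hnil' : Group.IsNilpotent ((Cfsg.fittingSubgroup ↥N).map N.subtype) :=
      Group.nilpotent_of_surjective (N.subtype.subgroupMap (Cfsg.fittingSubgroup ↥N))
        (MonoidHom.subgroupMap_surjective _ _)
    exact Fitting.le_fitting hn hnil'

theorem gfs_map_normal (N : Subgroup G) [hN : N.Normal] :
    ((Cfsg.generalizedFittingSubgroup ↥N).map N.subtype).Normal := by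
  have h1 := Layer.layer_characteristic ↥N
  have h2 := Layer.fitting_characteristic ↥N
  have hc : (Cfsg.generalizedFittingSubgroup ↥N).Characteristic := by
    unfold Cfsg.generalizedFittingSubgroup
    infer_instance
  infer_instance

/-- Kurzweil–Stellmacher 10.1: a primitive subgroup `M` meeting `F*(N)`, `N ⊴ G`. -/
theorem primitive_inf_gfs (M : Subgroup G) (hM : M ≠ ⊤)
    (hprim : ∀ N : Subgroup G, N ≤ M → M ≤ normalizer (N : Set G) → N ≠ ⊥ →
      normalizer (N : Set G) = M)
    (N : Subgroup G) [hN : N.Normal]
    (hMF : M ⊓ (Cfsg.generalizedFittingSubgroup ↥N).map N.subtype ≠ ⊥) :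
    Cfsg.fittingSubgroup G = ⊥ ∧
      (Cfsg.generalizedFittingSubgroup ↥N).map N.subtype = Cfsg.generalizedFittingSubgroup G ∧
      Cfsg.generalizedFittingSubgroup G = Cfsg.layer G ∧
      ∀ K : Subgroup G, K.Normal → K ≠ ⊥ →
        (∀ K' : Subgroup G, K'.Normal → K' ≤ K → K' = ⊥ ∨ K' = K) → K ≤ N := by
  -- normal subgroups of `G` inside `M` are trivial
  have hP0 : ∀ T : Subgroup G, T.Normal → T ≤ M → T = ⊥ := by
    intro T hT hTM
    by_contra hne
    have hTn : normalizer (T : Set G) = ⊤ := normalizer_eq_top T
    have h1 := hprim T hTM (by rw [hTn]; exact le_top) hne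
    rw [hTn] at h1
    exact hM h1.symm
  obtain ⟨F, hFdef⟩ : ∃ F : Subgroup G,
      F = (Cfsg.generalizedFittingSubgroup ↥N).map N.subtype := ⟨_, rfl⟩
  rw [← hFdef] at hMF ⊢
  have hFn : F.Normal := by rw [hFdef]; exact gfs_map_normal N
  have hFN : F ≤ N := by rw [hFdef]; exact map_subtype_le _
  have hFle : F ≤ Cfsg.generalizedFittingSubgroup G := by rw [hFdef]; exact gfs_map_le N
  have hXn : M ≤ normalizer ((M ⊓ F : Subgroup G) : Set G) := by
    intro m hm
    rw [mem_normalizer_iff]
    intro h
    rw [mem_inf, mem_inf]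
    constructor
    · rintro ⟨h1, h2⟩
      exact ⟨M.mul_mem (M.mul_mem hm h1) (M.inv_mem hm), hFn.conj_mem h h2 m⟩
    · rintro ⟨h1, h2⟩
      constructor
      · have := M.mul_mem (M.mul_mem (M.inv_mem hm) h1) hm
        simpa [mul_assoc] using this
      · have := hFn.conj_mem _ h2 m⁻¹
        simpa [mul_assoc] using this
  have hNX := hprim (M ⊓ F) inf_le_left hXn hMF
  have hCX : centralizer ((M ⊓ F : Subgroup G) : Set G) ≤ M :=
    (centralizer_le_normalizer _).trans hNX.le
  have hCgfs : centralizer (Cfsg.generalizedFittingSubgroup G : Set G) ≤ M :=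
    (centralizer_le (inf_le_right.trans hFle)).trans hCX
  -- `F(G) = 1`
  have hF : Cfsg.fittingSubgroup G = ⊥ := by
    rw [Fitting.fitting_eq_iSup_pCore]
    apply le_bot_iff.1
    apply iSup_le
    intro p
    have hpf : Fact (p : ℕ).Prime := ⟨p.2⟩
    by_contra hne
    have hne' : Cfsg.pCore (p : ℕ) G ≠ ⊥ := fun h => hne (by rw [h])
    have hZ1 := Bender1.pCore_center_ne_bot (p : ℕ) hne'
    have hZn := Bender1.pCore_center_normal (X := G) (p : ℕ)
    apply hZ1
    apply hP0 _ hZn
    refine le_trans ?_ hCgfs
    intro z hz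
    obtain ⟨hz1, hz2⟩ := mem_inf.1 hz
    have hle : Cfsg.generalizedFittingSubgroup G ≤ centralizer ({z} : Set G) := by
      unfold Cfsg.generalizedFittingSubgroup
      apply sup_le
      · intro e he
        rw [mem_centralizer_singleton_iff]
        exact (mem_centralizer_iff.1 (Bender1.layer_le_centralizer_fitting he) z
          (Fitting.pCore_le_fitting (p : ℕ) hz1)).symm
      · rw [Fitting.fitting_eq_iSup_pCore]
        apply iSup_le
        intro r y hy
        have hrf : Fact (r : ℕ).Prime := ⟨r.2⟩
        rw [mem_centralizer_singleton_iff]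
        by_cases hrp : (r : ℕ) = (p : ℕ)
        · rw [hrp] at hy
          exact mem_centralizer_iff.1 hz2 y hy
        · exact Bender1.pCore_commute hrp hy hz1
    rw [mem_centralizer_iff]
    intro g hg
    exact mem_centralizer_singleton_iff.1 (hle hg)
  have hg : Cfsg.generalizedFittingSubgroup G = Cfsg.layer G := by
    unfold Cfsg.generalizedFittingSubgroup
    rw [hF, sup_bot_eq]
  -- minimal normal subgroups lie in `N`
  have hmin : ∀ K : Subgroup G, K.Normal → K ≠ ⊥ →
      (∀ K' : Subgroup G, K'.Normal → K' ≤ K → K' = ⊥ ∨ K' = K) → K ≤ N := by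
    intro K hKn hK1 hKmin
    have hinf : (K ⊓ N).Normal := inferInstance
    rcases hKmin _ hinf inf_le_left with h | h
    · exfalso
      apply hK1
      apply hP0 K hKn
      have hcomm : K ≤ centralizer (N : Set G) := by
        rw [← commutator_eq_bot_iff_le_centralizer, eq_bot_iff, ← h]
        exact commutator_le_inf K N
      exact (hcomm.trans (centralizer_le (inf_le_right.trans hFN))).trans hCX
    · exact inf_eq_left.1 h
  refine ⟨hF, ?_, hg, hmin⟩
  apply le_antisymm hFle
  rw [hg, hFdef]
  apply sSup_le
  intro L hL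
  have hLN : L ≤ N := by
    have hZ := center_component_eq_bot hF L hL
    obtain ⟨h1, h2⟩ := normalClosure_minimal L hL hZ
    exact le_trans le_normalClosure (hmin _ normalClosure_normal h1 h2)
  have hcomp := Comp.isComponent_subgroupOf hL hLN
  have h3 : L.subgroupOf N ≤ Cfsg.generalizedFittingSubgroup ↥N :=
    (Layer.le_layer hcomp).trans le_sup_left
  have h4 := map_mono (f := N.subtype) h3
  rwa [map_subgroupOf_eq_of_le hLN] at h4

end Cfsg.Agent.Lib.Helper21.MinNormal
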