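import Mathlib
import Cfsg.Agent.S1312

set_option autoImplicit false

/-!
Primitive pairs (Kurzweil–Stellmacher 10.1): if `F*(M₁) ≤ M₂` and `F*(M₂) ≤ M₁` for a primitive
pair `(M₁, M₂)`, then the pair has characteristic `p`.  The key step is the one of
`Cfsg.Agent.S1312` (Bender's theorem for maximal subgroups), with primitivity in place of
maximality.
-/

namespace Cfsg.Agent.Lib.Helper21.PrimPair

open Subgroup
open scoped commutatorElement
open Cfsg
open Cfsg.Agent.Lib.Helper21 Cfsg.Agent.Lib.Helper22 Cfsg.Agent.Lib.Helper78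
open Cfsg.Agent.Lib.Helper23
open Cfsg.Agent.S1312

set_option linter.unusedSectionVars false

variable {G : Type*} [Group G] [Finite G]

/-- the key step: a `q'`-element of `M` centralizing `O_q(M)` centralizes `O_q(N)`. -/
theorem claimB' (M N : Subgroup G)
    (hlM : layer ↥M = ⊥) (q : ℕ) [hq : Fact q.Prime]
    (hQM : pc q N ≤ M)
    (hcomm : ∀ r : ℕ, r.Prime → r ≠ q → ∀ x ∈ pc r M, ∀ u ∈ pc q N, x * u = u * x)
    (b : G) (hbM : b ∈ M) (hb : b ∈ centralizer (pc q M : Set G)) (hbq : (orderOf b).Coprime q) :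
    b ∈ centralizer (pc q N : Set G) := by
  rw [Subgroup.mem_centralizer_iff]
  intro u hu
  have huM : u ∈ M := hQM hu
  have hNC : ∀ (r : ℕ) (m : G), m ∈ M →
      m ∈ normalizer ((centralizer (pc r M : Set G) : Subgroup G) : Set G) := by
    intro r m hm
    exact Basic.mem_normalizer_centralizer_of_map_conj_eq
      (Basic.map_conj_eq_iff_mem_normalizer.2 (pc_norm r M hm))
  obtain ⟨c, hc⟩ : ∃ c : G, c = b * u * b⁻¹ * u⁻¹ := ⟨_, rfl⟩
  have hcM : c ∈ M := by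
    rw [hc]
    exact M.mul_mem (M.mul_mem (M.mul_mem hbM huM) (M.inv_mem hbM)) (M.inv_mem huM)
  have hc1 : c ∈ centralizer (pc q M : Set G) := by
    have h1 : u * b⁻¹ * u⁻¹ ∈ centralizer (pc q M : Set G) :=
      (Subgroup.mem_normalizer_iff.1 (hNC q u huM) b⁻¹).1 (Subgroup.inv_mem _ hb)
    have : c = b * (u * b⁻¹ * u⁻¹) := by rw [hc]; group
    rw [this]
    exact Subgroup.mul_mem _ hb h1
  have hc2 : ∀ r : ℕ, r.Prime → r ≠ q → c ∈ centralizer (pc r M : Set G) := by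
    intro r hr hrq
    have hu' : u ∈ centralizer (pc r M : Set G) := by
      rw [Subgroup.mem_centralizer_iff]
      intro x hx
      exact hcomm r hr hrq x hx u hu
    have h1 : b * u * b⁻¹ ∈ centralizer (pc r M : Set G) :=
      (Subgroup.mem_normalizer_iff.1 (hNC r b hbM) u).1 hu'
    rw [hc]
    exact Subgroup.mul_mem _ h1 (Subgroup.inv_mem _ hu')
  have hc3 : ∀ r : ℕ, r.Prime → ∀ y ∈ pc r M, y * c = c * y := by
    intro r hr y hy
    by_cases hrq : r = q
    · subst hrq; exact Subgroup.mem_centralizer_iff.1 hc1 y hy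
    · exact Subgroup.mem_centralizer_iff.1 (hc2 r hr hrq) y hy
  have hcF := mem_iSup_pc_of_centralizes M hlM hcM hc3
  obtain ⟨X, hX⟩ : ∃ X : Subgroup G, X = ⨆ (r : Nat.Primes) (_ : (r : ℕ) ≠ q), pc (r : ℕ) M :=
    ⟨_, rfl⟩
  have hFle : (⨆ r : Nat.Primes, pc (r : ℕ) M) ≤ pc q M ⊔ X := by
    apply iSup_le
    intro r
    by_cases hrq : (r : ℕ) = q
    · rw [hrq]; exact le_sup_left
    · rw [hX]; exact le_sup_of_le_right (le_iSup₂_of_le r hrq le_rfl)
  have hPr : ∀ r : ℕ, r.Prime → r ≠ q → ∀ a ∈ pc q M, ∀ t ∈ pc r M, a * t = t * a := by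
    intro r hr hrq
    have : Fact r.Prime := ⟨hr⟩
    apply CompInv.commute_of_normalize_disjoint ((pc_le q M).trans (pc_norm r M))
      ((pc_le r M).trans (pc_norm q M))
    exact (IsPGroup.disjoint_of_ne q r (Ne.symm hrq) _ _ (pc_pgroup q M) (pc_pgroup r M)).eq_bot
  have hPX : ∀ a ∈ pc q M, ∀ t ∈ X, a * t = t * a := by
    intro a ha t ht
    have hle : X ≤ centralizer ({a} : Set G) := by
      rw [hX]
      apply iSup₂_le
      intro r hrq y hy
      rw [Subgroup.mem_centralizer_singleton_iff]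
      exact (hPr r r.2 hrq a ha y hy).symm
    exact (Subgroup.mem_centralizer_singleton_iff.1 (hle ht)).symm
  obtain ⟨cq, hcq, c', hc', hcc⟩ :=
    Cfsg.Agent.Lib.Helper21.Layer.mem_sup_of_commute hPX (hFle hcF)
  have hc'u : c' * u = u * c' := by
    have hle : X ≤ centralizer ({u} : Set G) := by
      rw [hX]
      apply iSup₂_le
      intro r hrq y hy
      rw [Subgroup.mem_centralizer_singleton_iff]
      exact hcomm r r.2 hrq y hy u hu
    exact Subgroup.mem_centralizer_singleton_iff.1 (hle hc')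
  have hc'cq : cq * c' = c' * cq := hPX cq hcq c' hc'
  have hXle : X ≤ (pPrimeCore q ↥M).map M.subtype := by
    rw [hX]
    apply iSup₂_le
    intro r hrq
    have : Fact (r : ℕ).Prime := ⟨r.2⟩
    exact pc_le_pPrime q r hrq M
  have hc'cop : (orderOf c').Coprime q := coprime_of_mem_pPrime q M (hXle hc')
  obtain ⟨k, hk⟩ := pow_eq_one_of_mem_pc q N hu
  have hzu : IsPGroup q ↥(Subgroup.zpowers u) := by
    rintro ⟨g, hg⟩
    obtain ⟨i, rfl⟩ := Subgroup.mem_zpowers_iff.1 hg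
    refine ⟨k, ?_⟩
    apply Subtype.ext
    show (u ^ i) ^ q ^ k = 1
    rw [← zpow_natCast, ← zpow_mul, mul_comm, zpow_mul, zpow_natCast, hk, one_zpow]
  have hsup : IsPGroup q ↥(Subgroup.zpowers u ⊔ pc q M) :=
    IsPGroup.to_sup_of_normal_right' hzu (pc_pgroup q M)
      ((Subgroup.zpowers_le.2 huM).trans (pc_norm q M))
  have hv : cq * u ∈ Subgroup.zpowers u ⊔ pc q M :=
    Subgroup.mul_mem _ (Subgroup.mem_sup_right hcq)
      (Subgroup.mem_sup_left (Subgroup.mem_zpowers u))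
  obtain ⟨j, hj⟩ := hsup ⟨cq * u, hv⟩
  have hj' : (cq * u) ^ q ^ j = 1 := by simpa using congrArg Subtype.val hj
  have hconj : b * u * b⁻¹ = c' * (cq * u) := by
    have : b * u * b⁻¹ = c * u := by rw [hc]; group
    rw [this, hcc, hc'cq, mul_assoc]
  have hcomm' : Commute c' (cq * u) := by
    show c' * (cq * u) = cq * u * c'
    rw [← mul_assoc, ← hc'cq, mul_assoc, hc'u, mul_assoc]
  have hpow : c' ^ q ^ (k + j) = 1 := by
    have h1 : (b * u * b⁻¹) ^ q ^ (k + j) = 1 := by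
      rw [conj_pow, pow_add, pow_mul, hk, one_pow]; group
    rw [hconj, hcomm'.mul_pow] at h1
    have h2 : (cq * u) ^ q ^ (k + j) = 1 := by
      rw [pow_add, mul_comm, pow_mul, hj', one_pow]
    rwa [h2, mul_one] at h1
  have hc'1 : c' = 1 := by
    have hd : orderOf c' ∣ q ^ (k + j) := orderOf_dvd_of_pow_eq_one hpow
    have : orderOf c' = 1 := Nat.Coprime.eq_one_of_dvd (Nat.Coprime.pow_right _ hc'cop) hd
    exact orderOf_eq_one_iff.1 this
  have hcP : c ∈ pc q M := by rw [hcc, hc'1, mul_one]; exact hcq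
  have hbc : b * c = c * b := (Subgroup.mem_centralizer_iff.1 hb c hcP).symm
  have hbu : b * u * b⁻¹ = c * u := by rw [hc]; group
  have hind : ∀ n : ℕ, b ^ n * u * (b ^ n)⁻¹ = c ^ n * u := by
    intro n
    induction n with
    | zero => simp
    | succ n ih =>
      have hbcn : b * c ^ n = c ^ n * b := (Commute.pow_right hbc n)
      calc b ^ (n + 1) * u * (b ^ (n + 1))⁻¹ = b * (b ^ n * u * (b ^ n)⁻¹) * b⁻¹ := by
            rw [pow_succ']; group
        _ = b * (c ^ n * u) * b⁻¹ := by rw [ih]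
        _ = (b * c ^ n) * u * b⁻¹ := by group
        _ = c ^ n * (b * u * b⁻¹) := by rw [hbcn]; group
        _ = c ^ (n + 1) * u := by rw [hbu, ← mul_assoc, ← pow_succ]
  have hcm : c ^ orderOf b = 1 := by
    have h := hind (orderOf b)
    rw [pow_orderOf_eq_one] at h
    simp only [one_mul, inv_one, mul_one] at h
    exact (mul_eq_right.1 h.symm)
  obtain ⟨a, ha⟩ := pow_eq_one_of_mem_pc q M hcP
  have hc1' : c = 1 := by
    have hd1 : orderOf c ∣ orderOf b := orderOf_dvd_of_pow_eq_one hcm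
    have hd2 : orderOf c ∣ q ^ a := orderOf_dvd_of_pow_eq_one ha
    have hcop : (orderOf b).Coprime (q ^ a) := Nat.Coprime.pow_right _ hbq
    have : orderOf c = 1 := Nat.eq_one_of_dvd_coprimes hcop hd1 hd2
    exact orderOf_eq_one_iff.1 this
  have h3 : b * u * b⁻¹ = u := by rw [hbu, hc1', one_mul]
  calc u * b = (b * u * b⁻¹) * b := by rw [h3]
    _ = b * u := by group


/-- the subgroup generated by the `q'`-elements of `C_M(O_q(M))`. -/
def qpM (q : ℕ) (M : Subgroup G) : Subgroup G :=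
  Subgroup.closure {b | b ∈ M ∧ b ∈ centralizer (pc q M : Set G) ∧ (orderOf b).Coprime q}

theorem qpM_le (q : ℕ) (M : Subgroup G) : qpM q M ≤ M := by
  unfold qpM
  rw [Subgroup.closure_le]
  intro b hb
  exact hb.1

theorem le_normalizer_qpM (q : ℕ) (M : Subgroup G) :
    M ≤ normalizer ((qpM q M : Subgroup G) : Set G) := by
  apply CompInv.le_normalizer_closure
  intro m hm s hs
  refine ⟨?_, ?_, ?_⟩
  · exact M.mul_mem (M.mul_mem hm hs.1) (M.inv_mem hm)
  · have hmn : m ∈ normalizer ((centralizer (pc q M : Set G) : Subgroup G) : Set G) :=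
      Basic.mem_normalizer_centralizer_of_map_conj_eq
        (Basic.map_conj_eq_iff_mem_normalizer.2 (pc_norm q M hm))
    exact (Subgroup.mem_normalizer_iff.1 hmn s).1 hs.2.1
  · have : orderOf (m * s * m⁻¹) = orderOf s := (MulAut.conj m).orderOf_eq s
    rw [this]
    exact hs.2.2

/-- if `C_M(O_q(M))` has no nontrivial `q'`-elements and `M` has no components, then
`F*(M) = O_q(M)`. -/
theorem gfs_eq_pCore (q : Nat.Primes) (M : Subgroup G) (hl : layer ↥M = ⊥)
    (hB : qpM (q : ℕ) M = ⊥) : generalizedFittingSubgroup ↥M = pCore (q : ℕ) ↥M := by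
  have : Fact (q : ℕ).Prime := ⟨q.2⟩
  have hr : ∀ r : Nat.Primes, (r : ℕ) ≠ (q : ℕ) → pCore (r : ℕ) ↥M = ⊥ := by
    intro r hrq
    have : Fact (r : ℕ).Prime := ⟨r.2⟩
    rw [eq_bot_iff]
    intro y hy
    have hyP : (y : G) ∈ pc (r : ℕ) M := Subgroup.mem_map_of_mem _ hy
    have hyc : (y : G) ∈ centralizer (pc (q : ℕ) M : Set G) := by
      rw [Subgroup.mem_centralizer_iff]
      intro a ha
      exact CompInv.commute_of_normalize_disjoint ((pc_le _ M).trans (pc_norm _ M))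
        ((pc_le _ M).trans (pc_norm _ M))
        (IsPGroup.disjoint_of_ne (q : ℕ) (r : ℕ) (Ne.symm hrq) _ _ (pc_pgroup _ M)
          (pc_pgroup _ M)).eq_bot a ha (y : G) hyP
    obtain ⟨k, hk⟩ := pow_eq_one_of_mem_pc (r : ℕ) M hyP
    have hcop : (orderOf (y : G)).Coprime (q : ℕ) := by
      have hd : orderOf (y : G) ∣ (r : ℕ) ^ k := orderOf_dvd_of_pow_eq_one hk
      exact Nat.Coprime.coprime_dvd_left hd
        (Nat.Coprime.pow_left k ((Nat.coprime_primes r.2 q.2).2 (fun h => hrq h)))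
    have hmem : (y : G) ∈ qpM (q : ℕ) M := Subgroup.subset_closure ⟨y.2, hyc, hcop⟩
    rw [hB, Subgroup.mem_bot] at hmem
    rw [Subgroup.mem_bot]
    exact Subtype.ext hmem
  unfold generalizedFittingSubgroup
  rw [hl, bot_sup_eq, Fitting.fitting_eq_iSup_pCore]
  apply le_antisymm
  · apply iSup_le
    intro r
    by_cases hrq : (r : ℕ) = (q : ℕ)
    · rw [hrq]
    · rw [hr r hrq]
      exact bot_le
  · exact le_iSup (fun r : Nat.Primes => pCore (r : ℕ) ↥M) q

theorem gfs_ne_bot (M : Subgroup G) (hM1 : M ≠ ⊥) : generalizedFittingSubgroup ↥M ≠ ⊥ := by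
  intro h
  have hc := FStar.centralizer_gfs_le (G := ↥M)
  rw [h] at hc
  apply hM1
  rw [eq_bot_iff]
  intro x hx
  have hx' : (⟨x, hx⟩ : ↥M) ∈ (⊥ : Subgroup ↥M) := by
    apply hc
    rw [Subgroup.mem_centralizer_iff]
    intro y hy
    rw [SetLike.mem_coe, Subgroup.mem_bot] at hy
    rw [hy]
    simp
  rw [Subgroup.mem_bot] at hx'
  rw [Subgroup.mem_bot]
  exact congrArg Subtype.val hx'

/-- Kurzweil–Stellmacher 10.1: a primitive pair `(M₁, M₂)` with `F*(M₁) ≤ M₂` and `F*(M₂) ≤ M₁`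
has characteristic `p`. -/
theorem primitive_pair_char_p (M₁ M₂ : Subgroup G) (hne : M₁ ≠ M₂)
    (hP : ∀ A : Subgroup G, A ≠ ⊥ → A ≤ M₁ ⊓ M₂ →
      (M₁ ≤ normalizer (A : Set G) → M₂ ⊓ normalizer (A : Set G) = M₁ ⊓ M₂) ∧
      (M₂ ≤ normalizer (A : Set G) → M₁ ⊓ normalizer (A : Set G) = M₁ ⊓ M₂))
    (h₁ : (generalizedFittingSubgroup ↥M₁).map M₁.subtype ≤ M₂)
    (h₂ : (generalizedFittingSubgroup ↥M₂).map M₂.subtype ≤ M₁) :
    ∃ p : ℕ, p.Prime ∧ centralizer (pCore p ↥M₁ : Set ↥M₁) ≤ pCore p ↥M₁ ∧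
      centralizer (pCore p ↥M₂ : Set ↥M₂) ≤ pCore p ↥M₂ ∧
      (pCore p ↥M₁).map M₁.subtype ⊔ (pCore p ↥M₂).map M₂.subtype ≤ M₁ ⊓ M₂ := by
  -- a primitive pair has no common nontrivial normal subgroup inside `M₁ ∩ M₂`
  have hcommon : ∀ A : Subgroup G, A ≤ M₁ → A ≤ M₂ → M₁ ≤ normalizer (A : Set G) →
      M₂ ≤ normalizer (A : Set G) → A = ⊥ := by
    intro A hA1 hA2 hn1 hn2
    by_contra hA
    obtain ⟨e1, e2⟩ := hP A hA (le_inf hA1 hA2)
    have e1' := e1 hn1
    have e2' := e2 hn2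
    rw [inf_eq_left.2 hn2] at e1'
    rw [inf_eq_left.2 hn1] at e2'
    exact hne (e2'.trans e1'.symm)
  have hM1 : M₁ ≠ ⊥ := by
    intro h
    have hM2 : M₂ ≠ ⊥ := fun h' => hne (h.trans h'.symm)
    apply gfs_ne_bot M₂ hM2
    have h3 : (generalizedFittingSubgroup ↥M₂).map M₂.subtype = ⊥ := by
      rw [eq_bot_iff, ← h]
      exact h₂
    exact (Subgroup.map_eq_bot_iff_of_injective _ M₂.subtype_injective).1 h3
  have hM2 : M₂ ≠ ⊥ := by
    intro h
    apply gfs_ne_bot M₁ hM1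
    have h3 : (generalizedFittingSubgroup ↥M₁).map M₁.subtype = ⊥ := by
      rw [eq_bot_iff, ← h]
      exact h₁
    exact (Subgroup.map_eq_bot_iff_of_injective _ M₁.subtype_injective).1 h3
  -- Step 1: no components
  have hE : (layer ↥M₁).map M₁.subtype = (layer ↥M₂).map M₂.subtype :=
    le_antisymm (layer_map_le M₁ M₂ h₁ h₂) (layer_map_le M₂ M₁ h₂ h₁)
  have hnM : ∀ M : Subgroup G,
      M ≤ normalizer (((layer ↥M).map M.subtype : Subgroup G) : Set G) := by
    intro M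
    have := Cfsg.Agent.Lib.Helper21.Layer.layer_normal ↥M
    exact LBal.le_normalizer_map_subtype M (layer ↥M)
  have hEbot : (layer ↥M₁).map M₁.subtype = ⊥ := by
    apply hcommon _ (map_subtype_le _) _ (hnM M₁) _
    · rw [hE]
      exact map_subtype_le _
    · rw [hE]
      exact hnM M₂
  have hlM : layer ↥M₁ = ⊥ :=
    (Subgroup.map_eq_bot_iff_of_injective _ M₁.subtype_injective).1 hEbot
  have hlN : layer ↥M₂ = ⊥ := by
    have : (layer ↥M₂).map M₂.subtype = ⊥ := by rw [← hE]; exact hEbot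
    exact (Subgroup.map_eq_bot_iff_of_injective _ M₂.subtype_injective).1 this
  -- Step 2
  have hgM : generalizedFittingSubgroup ↥M₁ = ⨆ r : Nat.Primes, pCore (r : ℕ) ↥M₁ := by
    unfold generalizedFittingSubgroup
    rw [hlM, bot_sup_eq, Fitting.fitting_eq_iSup_pCore]
  have hgM1 := gfs_ne_bot M₁ hM1
  obtain ⟨q, hq⟩ : ∃ q : Nat.Primes, pCore (q : ℕ) ↥M₁ ≠ ⊥ := by
    by_contra hcon
    push Not at hcon
    apply hgM1
    rw [hgM]
    simp [hcon]
  have : Fact (q : ℕ).Prime := ⟨q.2⟩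
  have hPne : pc (q : ℕ) M₁ ≠ ⊥ := by
    rwa [Ne, Subgroup.map_eq_bot_iff_of_injective _ M₁.subtype_injective]
  have hPQ : ∀ r s : ℕ, r.Prime → s.Prime → r ≠ s →
      ∀ x ∈ pc r M₁, ∀ y ∈ pc s M₂, x * y = y * x := by
    intro r s hr hs hrs
    have : Fact r.Prime := ⟨hr⟩
    have : Fact s.Prime := ⟨hs⟩
    apply CompInv.commute_of_normalize_disjoint
    · exact ((pc_le_gfs r M₁).trans h₁).trans (pc_norm s M₂)
    · exact ((pc_le_gfs s M₂).trans h₂).trans (pc_norm r M₁)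
    · exact (IsPGroup.disjoint_of_ne r s hrs _ _ (pc_pgroup r M₁) (pc_pgroup s M₂)).eq_bot
  have hQne : pc (q : ℕ) M₂ ≠ ⊥ := by
    intro hQ
    apply hPne
    rw [eq_bot_iff]
    intro x hx
    have hxN : x ∈ M₂ := h₁ (pc_le_gfs (q : ℕ) M₁ hx)
    have hcx : ∀ r : ℕ, r.Prime → ∀ y ∈ pc r M₂, y * x = x * y := by
      intro r hr y hy
      by_cases hrq : r = (q : ℕ)
      · rw [hrq, hQ, Subgroup.mem_bot] at hy
        rw [hy]
        simp
      · exact (hPQ (q : ℕ) r q.2 hr (Ne.symm hrq) x hx y hy).symm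
    have hmem := mem_iSup_pc_of_centralizes M₂ hlN hxN hcx
    have hle : (⨆ r : Nat.Primes, pc (r : ℕ) M₂) ≤
        (pPrimeCore (q : ℕ) ↥M₂).map M₂.subtype := by
      apply iSup_le
      intro r
      by_cases hrq : (r : ℕ) = (q : ℕ)
      · rw [hrq, hQ]
        exact bot_le
      · have : Fact (r : ℕ).Prime := ⟨r.2⟩
        exact pc_le_pPrime (q : ℕ) (r : ℕ) hrq M₂
    have hcop := coprime_of_mem_pPrime (q : ℕ) M₂ (hle hmem)
    obtain ⟨k, hk⟩ := pow_eq_one_of_mem_pc (q : ℕ) M₁ hx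
    have : orderOf x = 1 :=
      Nat.Coprime.eq_one_of_dvd (Nat.Coprime.pow_right _ hcop) (orderOf_dvd_of_pow_eq_one hk)
    rw [Subgroup.mem_bot]
    exact orderOf_eq_one_iff.1 this
  have hQ1 : pc (q : ℕ) M₂ ≤ M₁ := (pc_le_gfs _ M₂).trans h₂
  have hP2 : pc (q : ℕ) M₁ ≤ M₂ := (pc_le_gfs _ M₁).trans h₁
  have h12 : qpM (q : ℕ) M₁ ≤ qpM (q : ℕ) M₂ := by
    apply Subgroup.closure_mono
    intro b hb
    have hc := claimB' M₁ M₂ hlM (q : ℕ) hQ1
      (fun r hr hrq x hx u hu => hPQ r q hr q.2 hrq x hx u hu) b hb.1 hb.2.1 hb.2.2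
    have hbM2 : b ∈ M₂ := by
      have e := (hP (pc (q : ℕ) M₂) hQne (le_inf hQ1 (pc_le _ M₂))).2 (pc_norm _ M₂)
      have hb' : b ∈ M₁ ⊓ normalizer (pc (q : ℕ) M₂ : Set G) :=
        mem_inf.2 ⟨hb.1, centralizer_le_normalizer _ hc⟩
      rw [e] at hb'
      exact hb'.2
    exact ⟨hbM2, hc, hb.2.2⟩
  have h21 : qpM (q : ℕ) M₂ ≤ qpM (q : ℕ) M₁ := by
    apply Subgroup.closure_mono
    intro b hb
    have hc := claimB' M₂ M₁ hlN (q : ℕ) hP2
      (fun r hr hrq x hx u hu => (hPQ q r q.2 hr (Ne.symm hrq) u hu x hx).symm) b hb.1 hb.2.1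
      hb.2.2
    have hbM1 : b ∈ M₁ := by
      have e := (hP (pc (q : ℕ) M₁) hPne (le_inf (pc_le _ M₁) hP2)).1 (pc_norm _ M₁)
      have hb' : b ∈ M₂ ⊓ normalizer (pc (q : ℕ) M₁ : Set G) :=
        mem_inf.2 ⟨hb.1, centralizer_le_normalizer _ hc⟩
      rw [e] at hb'
      exact hb'.1
    exact ⟨hbM1, hc, hb.2.2⟩
  have hS : qpM (q : ℕ) M₁ = qpM (q : ℕ) M₂ := le_antisymm h12 h21
  have hB1 : qpM (q : ℕ) M₁ = ⊥ := by
    apply hcommon _ (qpM_le _ M₁) _ (le_normalizer_qpM _ M₁) _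
    · rw [hS]
      exact qpM_le _ M₂
    · rw [hS]
      exact le_normalizer_qpM _ M₂
  have hB2 : qpM (q : ℕ) M₂ = ⊥ := by rw [← hS]; exact hB1
  have g1 := gfs_eq_pCore q M₁ hlM hB1
  have g2 := gfs_eq_pCore q M₂ hlN hB2
  refine ⟨q, q.2, ?_, ?_, ?_⟩
  · rw [← g1]
    exact FStar.centralizer_gfs_le
  · rw [← g2]
    exact FStar.centralizer_gfs_le
  · exact sup_le (le_inf (pc_le _ M₁) hP2) (le_inf hQ1 (pc_le _ M₂))

end Cfsg.Agent.Lib.Helper21.PrimPair
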