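import Mathlib
import Cfsg.Agent.Lib.Helper43.SPStmt
import Cfsg.Agent.Lib.Helper44.OMat
import Cfsg.Agent.Lib.Helper44.ODet

set_option autoImplicit false

namespace Cfsg.Agent.Lib.Helper21.SPSPINMAT

open Module QuadraticMap
open Cfsg.Agent.Lib.Helper44.QSpace Cfsg.Agent.Lib.Helper44.OGroup
open Cfsg.Agent.Lib.Helper44.Parity Cfsg.Agent.Lib.Helper44.Spinor
open Cfsg.Agent.Lib.Helper44.OConj
open Cfsg.Agent.Lib.Helper44.OMat Cfsg.Agent.Lib.Helper44.ODet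
open Cfsg.Agent.Lib.Helper43.SPStmt

universe u

theorem main (hAbs : SpinAbs.{u}) : SpinMat.{u} := by
  intro F _ _ ι _ _ Q h2 hS k hk hk0 s r hr hrF hsr
  have hfin : finrank F (ι → F) = 2 * k := by
    rw [Module.finrank_fintype_fun_eq_card]; exact hk
  have hs' : (isoEquiv Q s) ^ r = 1 := by rw [← map_pow, hsr, map_one]
  have hs'' : ((isoEquiv Q s : ↥(O Q)) : (ι → F) ≃ₗ[F] (ι → F)) ^ r = 1 := by
    have := congrArg (Subtype.val) hs'
    simpa using this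
  obtain ⟨vs, hvs, hlen, hsq, hcomm⟩ := hAbs F (ι → F) Q h2 hS (by rw [hfin]; exact even_two_mul k)
    (by rw [hfin]; omega) ((isoEquiv Q s : ↥(O Q)) : (ι → F) ≃ₗ[F] (ι → F)) r (isoEquiv Q s).2
    hr hrF hs''
  obtain ⟨σ₀, hσ₀⟩ : ∃ σ₀ : ↥(Cfsg.isometryGroup F ⇑Q),
      σ₀ = (isoEquiv Q).symm ((vs.map (refl Q)).prod) := ⟨_, rfl⟩
  have hiso : isoEquiv Q σ₀ = (vs.map (refl Q)).prod := by
    rw [hσ₀, MulEquiv.apply_symm_apply]
  have hdet : Matrix.GeneralLinearGroup.det (σ₀ : GL ι F) = 1 := by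
    rw [det_of_prod Q σ₀ vs hvs hiso]
    exact hlen.neg_one_pow
  have hspec : σ₀ ∈ Cfsg.specialIsometryGroup F ⇑Q := (mem_special_iff Q σ₀).2 hdet
  refine ⟨⟨σ₀, hspec⟩, ?_, ?_⟩
  · show σ₀ ∉ Cfsg.Omega F ⇑Q
    rw [mem_omega_iff, hiso, mem_commutator_iff h2 hS (by rw [hfin]; omega) vs hvs]
    exact fun h => hsq h.2
  · show σ₀ * s = s * σ₀
    apply (isoEquiv Q).injective
    rw [map_mul, map_mul, hiso]
    apply Subtype.ext
    rw [Subgroup.coe_mul, Subgroup.coe_mul, coe_prod_refl]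
    exact hcomm

end Cfsg.Agent.Lib.Helper21.SPSPINMAT
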