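import Mathlib
import Cfsg.Agent.Lib.Helper38.Sp4Stmt

/-!
# S5320 / piece DGEN: `d = ψ (w, w)` is a product of `2`-elements of `N_G(A)`
-/

set_option autoImplicit false

namespace Cfsg.Agent.Lib.Helper21.Sp4DGEN

open Cfsg.Agent.Lib.Helper38.Sp4Stmt

universe u v

theorem orderOf_two_pow {G : Type u} [Group G] {g : G} {k : ℕ} (h : g ^ (2 ^ k) = 1) :
    ∃ e : ℕ, orderOf g = 2 ^ e := by
  obtain ⟨e, -, he⟩ := (Nat.dvd_prime_pow Nat.prime_two).mp (orderOf_dvd_of_pow_eq_one h)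
  exact ⟨e, he⟩

/-- [DGEN] -/
theorem main : Cfsg.Agent.Lib.Helper38.Sp4Stmt.DGEN.{u, v} := by
  intro _ _ _ hNA G L _ _ ψ τ ε Q w x0 hD hQ hQ8 hX
  obtain ⟨hd, hx0⟩ := hNA G L ψ τ ε Q w x0 hD hQ hQ8 hX
  obtain ⟨c, hc, hcc⟩ := hX.inv
  obtain ⟨k, hk⟩ := hX.pow
  obtain ⟨kc, hkc⟩ := hQ.two c hc
  have hcube : ψ (w, w) * ψ (w, w) * ψ (w, w) = 1 := by
    rw [← map_mul, ← map_mul]
    have : ((w, w) : L × L) * (w, w) * (w, w) = 1 := by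
      refine Prod.ext ?_ ?_
      · exact hQ8.w_cube
      · exact hQ8.w_cube
    rw [this, map_one]
  -- the three factors
  have h1 : ψ (c, c) ∈ Subgroup.closure {k : G |
      k ∈ Subgroup.normalizer ((AA ψ τ ε Q : Subgroup G) : Set G) ∧
        ∃ e : ℕ, orderOf k = 2 ^ e} := by
    apply Subgroup.subset_closure
    refine ⟨Subgroup.le_normalizer (Subgroup.subset_closure (Or.inr (Or.inr ⟨c, hc, rfl⟩))), ?_⟩
    apply orderOf_two_pow (k := kc)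
    rw [← map_pow, Prod.pow_mk, hkc]
    exact map_one ψ
  have h2 : x0 ∈ Subgroup.closure {k : G |
      k ∈ Subgroup.normalizer ((AA ψ τ ε Q : Subgroup G) : Set G) ∧
        ∃ e : ℕ, orderOf k = 2 ^ e} :=
    Subgroup.subset_closure ⟨hx0, orderOf_two_pow hk⟩
  have h3 : ψ (w, w) * x0⁻¹ * (ψ (w, w))⁻¹ ∈ Subgroup.closure {k : G |
      k ∈ Subgroup.normalizer ((AA ψ τ ε Q : Subgroup G) : Set G) ∧
        ∃ e : ℕ, orderOf k = 2 ^ e} := by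
    apply Subgroup.subset_closure
    refine ⟨Subgroup.mul_mem _ (Subgroup.mul_mem _ hd (Subgroup.inv_mem _ hx0))
      (Subgroup.inv_mem _ hd), ?_⟩
    apply orderOf_two_pow (k := k)
    have e : (ψ (w, w) * x0⁻¹ * (ψ (w, w))⁻¹) ^ (2 ^ k) =
        ψ (w, w) * (x0 ^ (2 ^ k))⁻¹ * (ψ (w, w))⁻¹ := by
      rw [conj_pow, inv_pow]
    rw [e, hk]
    group
  have hd_eq : ψ (w, w) = (ψ (c, c))⁻¹ * x0 * (ψ (w, w) * x0⁻¹ * (ψ (w, w))⁻¹) := by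
    rw [← hcc]
    have e1 : (x0 * ψ (w, w) * x0⁻¹ * ψ (w, w))⁻¹ * x0 * (ψ (w, w) * x0⁻¹ * (ψ (w, w))⁻¹) =
        (ψ (w, w) * ψ (w, w))⁻¹ := by group
    rw [e1]
    apply eq_inv_of_mul_eq_one_left
    rw [← mul_assoc]
    exact hcube
  rw [hd_eq]
  exact Subgroup.mul_mem _ (Subgroup.mul_mem _ (Subgroup.inv_mem _ h1) h2) h3

end Cfsg.Agent.Lib.Helper21.Sp4DGEN
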