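import Mathlib
import Cfsg.Agent.Lib.Helper38.Sp4Stmt

/-!
# S5320 / piece LEPS: `-1` is the unique involution of `SL₂(F)`, central
-/

set_option autoImplicit false

namespace Cfsg.Agent.Lib.Helper21.Sp4LEPS

open Matrix Cfsg.Agent.Lib.Helper38.Sp4Stmt Cfsg.Agent.Lib.Helper42.SL2Odd

universe u

/-- [LEPS] -/
theorem main : Cfsg.Agent.Lib.Helper38.Sp4Stmt.LEPS.{u} := by
  intro F _ h2
  refine ⟨?_, ?_, ?_, ?_⟩
  · rw [neg_mul_neg, one_mul]
  · intro h
    have h1 : (-1 : Matrix.SpecialLinearGroup (Fin 2) F) 0 0 =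
        (1 : Matrix.SpecialLinearGroup (Fin 2) F) 0 0 := by rw [h]
    rw [neg_entries, (Cfsg.Agent.H85.PSL2Inv.one_entries (F := F)).1] at h1
    apply h2
    linear_combination (-1 : F) * h1
  · intro x
    rw [neg_one_mul, mul_neg_one]
  · intro x hx
    exact Cfsg.Agent.H85.PSL2Inv.eq_one_or_neg_of_sq h2 hx

end Cfsg.Agent.Lib.Helper21.Sp4LEPS
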