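import Mathlib
import Cfsg.Agent.Lib.Helper38.Sp4Stmt

/-!
# S5320 / piece NA: `d = ψ (w, w)` and `x0` normalize `A`
-/

set_option autoImplicit false

namespace Cfsg.Agent.Lib.Helper21.Sp4NA

open Cfsg.Agent.Lib.Helper38.Sp4Stmt

universe u v

/-- an element of finite order conjugating the generators of `A = closure S` into `A`
normalizes `A` -/
theorem mem_normalizer_of_gens {G : Type u} [Group G] (S : Set G) (g : G) (n : ℕ) (hn : 0 < n)
    (hg : g ^ n = 1) (hS : ∀ s ∈ S, g * s * g⁻¹ ∈ Subgroup.closure S) :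
    g ∈ Subgroup.normalizer ((Subgroup.closure S : Subgroup G) : Set G) := by
  have h1 : Subgroup.closure S ≤ (Subgroup.closure S).comap (MulAut.conj g).toMonoidHom := by
    rw [Subgroup.closure_le]
    intro s hs
    exact hS s hs
  have h2 : ∀ x ∈ Subgroup.closure S, g * x * g⁻¹ ∈ Subgroup.closure S := fun x hx => h1 hx
  have h3 : ∀ m : ℕ, ∀ x ∈ Subgroup.closure S, g ^ m * x * (g ^ m)⁻¹ ∈ Subgroup.closure S := by
    intro m
    induction m with
    | zero => intro x hx; simpa using hx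
    | succ m ih =>
      intro x hx
      have := h2 _ (ih x hx)
      have e : g ^ (m + 1) * x * (g ^ (m + 1))⁻¹ = g * (g ^ m * x * (g ^ m)⁻¹) * g⁻¹ := by
        rw [pow_succ']
        group
      rw [e]
      exact this
  have hinv : g⁻¹ = g ^ (n - 1) := by
    apply inv_eq_of_mul_eq_one_left
    rw [← pow_succ, Nat.sub_add_cancel hn, hg]
  rw [Subgroup.mem_normalizer_iff]
  intro x
  constructor
  · exact h2 x
  · intro hx
    have := h3 (n - 1) _ hx
    rw [← hinv] at this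
    have e : g⁻¹ * (g * x * g⁻¹) * g⁻¹⁻¹ = x := by group
    rwa [e] at this

/-- `ψ (w, w)` normalizes `A` -/
theorem d_mem {G : Type u} {L : Type v} [Group G] [Group L] (ψ : L × L →* G) (τ : G)
    (ε : L) (Q : Subgroup L) (w : L) (hD : Data ψ τ ε) (hQ8 : Q8Data ε Q w) :
    ψ (w, w) ∈ Subgroup.normalizer ((AA ψ τ ε Q : Subgroup G) : Set G) := by
  have hcube : ψ (w, w) ^ 3 = 1 := by
    rw [← map_pow, Prod.pow_mk]
    have : w ^ 3 = 1 := by
      rw [pow_succ, pow_two]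
      exact hQ8.w_cube
    rw [this]
    exact map_one ψ
  have hinv : (ψ (w, w))⁻¹ = ψ (w⁻¹, w⁻¹) := by
    rw [← map_inv]
    rfl
  apply mem_normalizer_of_gens _ _ 3 (by norm_num) hcube
  rintro s (rfl | rfl | ⟨a, ha, rfl⟩)
  · -- `τ`
    apply Subgroup.subset_closure
    left
    have h1 := hD.tau_conj w w
    have h2 : s * ψ (w, w) = ψ (w, w) * s := by
      calc s * ψ (w, w) = s * ψ (w, w) * s⁻¹ * s := by group
        _ = ψ (w, w) * s := by rw [h1]
    calc ψ (w, w) * s * (ψ (w, w))⁻¹ = s * ψ (w, w) * (ψ (w, w))⁻¹ := by rw [h2]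
      _ = s := by group
  · -- `ψ (ε, 1)`
    apply Subgroup.subset_closure
    right; left
    rw [hinv, ← map_mul, ← map_mul]
    congr 1
    refine Prod.ext ?_ ?_
    · show w * ε * w⁻¹ = ε
      rw [← hD.eps_comm w]
      group
    · show w * 1 * w⁻¹ = 1
      group
  · -- `ψ (a, a)`
    apply Subgroup.subset_closure
    right; right
    refine ⟨w * a * w⁻¹, hQ8.w_norm a ha, ?_⟩
    rw [hinv, ← map_mul, ← map_mul]
    rfl

/-- `x0` normalizes `A` -/
theorem x0_mem {G : Type u} {L : Type v} [Group G] [Group L] (ψ : L × L →* G) (τ : G)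
    (ε : L) (Q : Subgroup L) (w : L) (x0 : G) (hX : X0Data ψ τ ε Q w x0) :
    x0 ∈ Subgroup.normalizer ((AA ψ τ ε Q : Subgroup G) : Set G) := by
  obtain ⟨k, hk⟩ := hX.pow
  apply mem_normalizer_of_gens _ _ (2 ^ k) (by positivity) hk
  rintro s (rfl | rfl | ⟨a, ha, rfl⟩)
  · rw [hX.tau_z]
    exact Subgroup.subset_closure (Or.inr (Or.inl rfl))
  · rw [hX.z_tau]
    exact Subgroup.subset_closure (Or.inl rfl)
  · obtain ⟨c', hc', hc⟩ := hX.delta a ha
    rw [hc]
    exact Subgroup.subset_closure (Or.inr (Or.inr ⟨c', hc', rfl⟩))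

/-- [NA] -/
theorem main : Cfsg.Agent.Lib.Helper38.Sp4Stmt.NA.{u, v} := by
  intro _ G L _ _ ψ τ ε Q w x0 hD _ hQ8 hX
  exact ⟨d_mem ψ τ ε Q w hD hQ8, x0_mem ψ τ ε Q w x0 hX⟩

end Cfsg.Agent.Lib.Helper21.Sp4NA
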