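import Mathlib
import Cfsg.Agent.Lib.Helper38.Sp4Stmt

/-!
# S5320 / piece QBIG: `-1 ∈ Qst` and `Qst ≠ {±1}`
-/

set_option autoImplicit false

namespace Cfsg.Agent.Lib.Helper21.Sp4QBIG

open Matrix Cfsg.Agent.Lib.Helper38.Sp4Stmt Cfsg.Agent.Lib.Helper42.SL2Odd

universe u

theorem w0_sq {F : Type u} [Field F] :
    (w0 : Matrix.SpecialLinearGroup (Fin 2) F) * w0 = -1 := by
  apply Cfsg.Agent.H85.PSL2Inv.sq_of_trace_zero
  show (Cfsg.Agent.H85.PSL2Inv.w0 : Matrix.SpecialLinearGroup (Fin 2) F) 0 0 +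
    (Cfsg.Agent.H85.PSL2Inv.w0 : Matrix.SpecialLinearGroup (Fin 2) F) 1 1 = 0
  rw [Cfsg.Agent.H85.PSL2Inv.w0_00, Cfsg.Agent.H85.PSL2Inv.w0_11, add_zero]

theorem w0_pow_four {F : Type u} [Field F] :
    (w0 : Matrix.SpecialLinearGroup (Fin 2) F) ^ (2 ^ 2) = 1 := by
  have e : (2 : ℕ) ^ 2 = 2 * 2 := by norm_num
  have h2 : (w0 : Matrix.SpecialLinearGroup (Fin 2) F) ^ 2 = -1 := by rw [pow_two, w0_sq]
  rw [e, pow_mul, h2, neg_one_sq]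

theorem w0_ne_one {F : Type u} [Field F] :
    (w0 : Matrix.SpecialLinearGroup (Fin 2) F) ≠ 1 := by
  intro h
  have h1 : (Cfsg.Agent.H85.PSL2Inv.w0 : Matrix.SpecialLinearGroup (Fin 2) F) 0 1 =
      (1 : Matrix.SpecialLinearGroup (Fin 2) F) 0 1 := by
    have h' : (Cfsg.Agent.H85.PSL2Inv.w0 : Matrix.SpecialLinearGroup (Fin 2) F) = 1 := h
    rw [h']
  rw [Cfsg.Agent.H85.PSL2Inv.w0_01, (Cfsg.Agent.H85.PSL2Inv.one_entries (F := F)).2.1] at h1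
  simp at h1

theorem w0_ne_neg_one {F : Type u} [Field F] :
    (w0 : Matrix.SpecialLinearGroup (Fin 2) F) ≠ -1 := by
  intro h
  have h1 : (Cfsg.Agent.H85.PSL2Inv.w0 : Matrix.SpecialLinearGroup (Fin 2) F) 0 0 =
      (-1 : Matrix.SpecialLinearGroup (Fin 2) F) 0 0 := by
    have h' : (Cfsg.Agent.H85.PSL2Inv.w0 : Matrix.SpecialLinearGroup (Fin 2) F) = -1 := h
    rw [h']
  rw [Cfsg.Agent.H85.PSL2Inv.w0_00, neg_entries,
    (Cfsg.Agent.H85.PSL2Inv.one_entries (F := F)).1] at h1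
  simp at h1

/-- [QBIG] -/
theorem main : Cfsg.Agent.Lib.Helper38.Sp4Stmt.QBIG.{u} := by
  intro F _ x y h h2
  have hC : ∀ g : Matrix.SpecialLinearGroup (Fin 2) F, g * w0 = w0 * g →
      (∃ k : ℕ, g ^ (2 ^ k) = 1) → g ∈ Qst x y h := by
    intro g hg hk
    exact Subgroup.subset_closure (Or.inl (Subgroup.subset_closure ⟨hg, hk⟩))
  refine ⟨hC (-1) (by rw [neg_one_mul, mul_neg_one]) ⟨1, by rw [pow_one, neg_one_sq]⟩, w0,
    hC w0 rfl ⟨2, w0_pow_four⟩, w0_ne_one, w0_ne_neg_one⟩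

end Cfsg.Agent.Lib.Helper21.Sp4QBIG
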