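import Mathlib
import Cfsg.Agent.Lib.Helper61.T2Stmt

set_option autoImplicit false

namespace Cfsg.Agent.Lib.Helper21.T2CYC

universe u v

/-- a point is fixed by `x` iff it is fixed by the cyclic group generated by `x` -/
theorem fixed_iff {G : Type*} [Group G] {Ω : Type*} [MulAction G Ω] (x : G) (ω : Ω) :
    ω ∈ MulAction.fixedPoints (Subgroup.zpowers x) Ω ↔ x • ω = ω := by
  constructor
  · intro h
    exact h ⟨x, Subgroup.mem_zpowers x⟩
  · intro h g
    have hx : x ∈ MulAction.stabilizer G ω := h
    have hg : (g : G) ∈ MulAction.stabilizer G ω := (Subgroup.zpowers_le.mpr hx) g.2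
    exact hg

theorem card_fixed {G : Type*} [Group G] {Ω : Type*} [MulAction G Ω] (x : G) :
    Nat.card (MulAction.fixedPoints (Subgroup.zpowers x) Ω) = Nat.card {ω : Ω // x • ω = ω} := by
  apply Nat.card_congr
  exact Equiv.subtypeEquivRight (fun ω => fixed_iff x ω)

theorem main : Cfsg.Agent.Lib.Helper61.T2Stmt.Cyc.{u, v} := by
  intro G _ Ω _ _ hfaith x hx
  have hp : Fact (Nat.Prime 13) := ⟨by norm_num⟩
  have hP : IsPGroup 13 (Subgroup.zpowers x) := by
    apply IsPGroup.of_card (n := 1)
    rw [Nat.card_zpowers, hx, pow_one]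
  have hmod := hP.card_modEq_card_fixedPoints Ω
  rw [card_fixed x, Nat.card_eq_fintype_card] at hmod
  have hle : Nat.card {ω : Ω // x • ω = ω} ≤ Fintype.card Ω := by
    rw [← Nat.card_eq_fintype_card]
    exact Nat.card_le_card_of_injective (fun ω => ω.1) Subtype.val_injective
  have hdvd : 13 ∣ Fintype.card Ω - Nat.card {ω : Ω // x • ω = ω} :=
    (Nat.modEq_iff_dvd' hle).mp hmod.symm
  obtain ⟨c, hc⟩ := hdvd
  refine ⟨c, ?_, by omega⟩
  by_contra hc0
  have hc0' : c = 0 := by omega
  have hall : Nat.card {ω : Ω // x • ω = ω} = Fintype.card Ω := by omega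
  -- every point is fixed, so x = 1
  have hfix : ∀ ω : Ω, x • ω = ω := by
    intro ω
    have hbij : Function.Bijective (fun ω : {ω : Ω // x • ω = ω} => ω.1) :=
      Function.Injective.bijective_of_nat_card_le Subtype.val_injective
        (by rw [hall, Nat.card_eq_fintype_card])
    obtain ⟨ω', hω'⟩ := hbij.2 ω
    have := ω'.2
    simp only at hω'
    rw [hω'] at this
    exact this
  have hx1 : x = 1 := by
    apply hfaith.eq_of_smul_eq_smul
    intro ω
    rw [hfix ω, one_smul]
  rw [hx1, orderOf_one] at hx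
  omega

end Cfsg.Agent.Lib.Helper21.T2CYC
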