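import Mathlib
import Cfsg.Agent.Lib.Helper61.T2Stmt

set_option autoImplicit false

namespace Cfsg.Agent.Lib.Helper21.T2JORDAN

universe u v

open MulAction

/-- a cycle of prime length: the cyclic group of `x` (order 13) is transitive on the non-fixed
points when there are exactly 13 of them -/
theorem exists_zpowers_smul {G : Type*} [Group G] {Ω : Type*} [Finite Ω] [MulAction G Ω]
    (x : G) (hx : orderOf x = 13) (s : Set Ω) (hs : s = {ω | x • ω = ω})
    (hc : sᶜ.ncard = 13) (a b : Ω) (ha : a ∉ s) (hb : b ∉ s) :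
    ∃ g ∈ Subgroup.zpowers x, g • a = b := by
  -- the orbit of a under zpowers x
  set O : Set Ω := MulAction.orbit (Subgroup.zpowers x) a with hO
  have hsub : O ⊆ sᶜ := by
    rintro ω ⟨g, rfl⟩
    intro hω
    apply ha
    rw [hs] at hω ⊢
    have h1 : x • ((g : G) • a) = (g : G) • a := hω
    obtain ⟨k, hk⟩ := Subgroup.mem_zpowers_iff.mp g.2
    rw [← hk] at h1
    have h2 : x ^ k • (x • a) = x ^ k • a := by
      rw [← mul_smul, ← ((Commute.refl x).zpow_right k).eq, mul_smul]
      exact h1
    exact smul_left_cancel _ h2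
  have hcardO : Nat.card O ∣ 13 := by
    have h1 : Nat.card O ∣ Nat.card (Subgroup.zpowers x) := by
      rw [hO, Nat.card_congr (MulAction.orbitEquivQuotientStabilizer (Subgroup.zpowers x) a)]
      exact Subgroup.card_quotient_dvd_card _
    rw [Nat.card_zpowers, hx] at h1
    exact h1
  have hne1 : Nat.card O ≠ 1 := by
    intro h1
    have hsubs : Subsingleton O := (Nat.card_eq_one_iff_unique.mp h1).1
    have ha' : a ∈ O := MulAction.mem_orbit_self a
    have hxa : x • a ∈ O := ⟨⟨x, Subgroup.mem_zpowers x⟩, rfl⟩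
    have := congrArg Subtype.val (hsubs.elim ⟨x • a, hxa⟩ ⟨a, ha'⟩)
    apply ha
    rw [hs]
    exact this
  have h13 : Nat.card O = 13 := by
    rcases (Nat.dvd_prime (by norm_num : Nat.Prime 13)).mp hcardO with h | h
    · exact absurd h hne1
    · exact h
  have hOeq : O = sᶜ := by
    apply Set.eq_of_subset_of_ncard_le hsub
    rw [hc, ← Nat.card_coe_set_eq, h13]
  have hbO : b ∈ O := by rw [hOeq]; exact hb
  obtain ⟨g, hg⟩ := hbO
  exact ⟨g.1, g.2, hg⟩

theorem descFactorial_three (n : ℕ) : n.descFactorial 3 = n * (n - 1) * (n - 2) := by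
  simp [Nat.descFactorial_succ]
  ring

theorem main : Cfsg.Agent.Lib.Helper61.T2Stmt.Jordan.{u, v} := by
  intro G _ _ Ω _ _ hfaith h2 x hx hfix hn
  classical
  set s : Set Ω := {ω | x • ω = ω} with hs
  have hs_card : s.ncard + 13 = Fintype.card Ω := by
    rw [← Nat.card_coe_set_eq]
    exact hfix
  have hc : sᶜ.ncard = 13 := by
    apply Set.ncard_compl_of_ncard_eq_add
    rw [Nat.card_eq_fintype_card, ← hs_card, add_comm]
  have hprim : IsPreprimitive G Ω := MulAction.isPreprimitive_of_is_two_pretransitive h2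
  have hsn : s.ncard = (Fintype.card Ω - 14) + 1 := by omega
  have hsn' : (Fintype.card Ω - 14) + 2 < Nat.card Ω := by
    rw [Nat.card_eq_fintype_card]; omega
  have hxmem : x ∈ fixingSubgroup G s := by
    rw [mem_fixingSubgroup_iff]
    intro y hy
    exact hy
  have hle : Subgroup.zpowers x ≤ fixingSubgroup G s := Subgroup.zpowers_le.mpr hxmem
  have htrans : IsPretransitive (fixingSubgroup G s) (SubMulAction.ofFixingSubgroup G s) := by
    constructor
    intro a b
    obtain ⟨g, hg, hgab⟩ := exists_zpowers_smul x hx s hs hc a.1 b.1 a.2 b.2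
    refine ⟨⟨g, hle hg⟩, ?_⟩
    apply Subtype.ext
    exact hgab
  have hfp : IsPreprimitive (fixingSubgroup G s) (SubMulAction.ofFixingSubgroup G s) := by
    apply IsPreprimitive.of_prime_card
    have : Nat.card ↥(SubMulAction.ofFixingSubgroup G s) = 13 := by
      rw [← hc, ← Nat.card_coe_set_eq]
      rfl
    rw [this]
    norm_num
  have hmp := hprim.isMultiplyPreprimitive hsn hsn' hfp
  have h3 : IsMultiplyPretransitive G Ω 3 := by
    have := hmp
    exact isMultiplyPretransitive_of_le (m := 3) (n := Fintype.card Ω - 14 + 2) (by omega)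
      (by rw [Nat.card_eq_fintype_card]; omega)
  -- divisibility
  have h3' : IsPretransitive G (Fin 3 ↪ Ω) := h3
  have hne : Nonempty (Fin 3 ↪ Ω) :=
    Function.Embedding.nonempty_of_card_le (by rw [Fintype.card_fin]; omega)
  obtain ⟨e⟩ := hne
  have hidx : (stabilizer G e).index = Nat.card (Fin 3 ↪ Ω) := index_stabilizer_of_transitive G e
  have hcard : Nat.card (Fin 3 ↪ Ω) =
      Fintype.card Ω * (Fintype.card Ω - 1) * (Fintype.card Ω - 2) := by
    rw [Nat.card_eq_fintype_card, Fintype.card_embedding_eq, Fintype.card_fin,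
      descFactorial_three]
  rw [← hcard, ← hidx]
  exact Subgroup.index_dvd_card _

end Cfsg.Agent.Lib.Helper21.T2JORDAN
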