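import Mathlib
import Cfsg.Agent.Lib.Helper61.T2Stmt

set_option autoImplicit false

namespace Cfsg.Agent.Lib.Helper21.T2SYLFIX

universe u v

/-- conjugation of a generator into a finite cyclic group normalises it -/
theorem mem_normalizer_of_conj_mem {G : Type*} [Group G] [Finite G] (x g : G)
    (h : g * x * g⁻¹ ∈ Subgroup.zpowers x) : g ∈ Subgroup.normalizer ((Subgroup.zpowers x : Subgroup G) : Set G) := by
  have hfwd : ∀ y ∈ Subgroup.zpowers x, g * y * g⁻¹ ∈ Subgroup.zpowers x := by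
    intro y hy
    obtain ⟨k, rfl⟩ := Subgroup.mem_zpowers_iff.mp hy
    have : g * x ^ k * g⁻¹ = (g * x * g⁻¹) ^ k := by rw [conj_zpow]
    rw [this]
    exact Subgroup.zpow_mem _ h k
  let φ : Subgroup.zpowers x → Subgroup.zpowers x := fun y => ⟨g * y.1 * g⁻¹, hfwd y.1 y.2⟩
  have hinj : Function.Injective φ := by
    intro a b hab
    have h1 : g * a.1 * g⁻¹ = g * b.1 * g⁻¹ := congrArg Subtype.val hab
    apply Subtype.ext
    have h2 : a.1 = g⁻¹ * (g * a.1 * g⁻¹) * g := by group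
    rw [h2, h1]; group
  have hsurj : Function.Surjective φ := Finite.surjective_of_injective hinj
  rw [Subgroup.mem_normalizer_iff]
  intro y
  constructor
  · exact hfwd y
  · intro hy
    obtain ⟨a, ha⟩ := hsurj ⟨g * y * g⁻¹, hy⟩
    have h1 : g * a.1 * g⁻¹ = g * y * g⁻¹ := congrArg Subtype.val ha
    have h2 : y = g⁻¹ * (g * y * g⁻¹) * g := by group
    rw [h2, ← h1]
    have h3 : g⁻¹ * (g * a.1 * g⁻¹) * g = a.1 := by group
    rw [h3]
    exact a.2

theorem part1 {G : Type u} [Group G] [Finite G] {Ω : Type v} [MulAction G Ω]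
    (htr : ∀ α γ : Ω, ∃ g : G, g • α = γ) (x : G) (hx : orderOf x = 13)
    (h13 : ¬ 13 ^ 2 ∣ Nat.card G) (α β : Ω) (hα : x • α = α) (hβ : x • β = β) :
    ∃ g : G, g * x * g⁻¹ ∈ Subgroup.zpowers x ∧ g • α = β := by
  have hp : Fact (Nat.Prime 13) := ⟨by norm_num⟩
  obtain ⟨h', hh'⟩ := htr β α
  -- y = h'⁻¹ x h' fixes β
  have hyβ : (h'⁻¹ * x * h') • β = β := by
    rw [mul_smul, mul_smul, hh', hα, ← hh', inv_smul_smul]
  -- inside S = stabilizer of β
  let S := MulAction.stabilizer G β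
  let xs : S := ⟨x, hβ⟩
  let ys : S := ⟨h'⁻¹ * x * h', hyβ⟩
  have hxs : orderOf xs = 13 := by rw [← hx]; exact Subgroup.orderOf_mk x hβ
  have hys : orderOf ys = 13 := by
    have h1 : orderOf ys = orderOf (h'⁻¹ * x * h') := Subgroup.orderOf_mk _ hyβ
    rw [h1, ← hx]
    have h2 : h'⁻¹ * x * h' = MulAut.conj h'⁻¹ x := by simp
    rw [h2, MulEquiv.orderOf_eq]
  have hcardS : (Nat.card S).factorization 13 = 1 := by
    have hne : Nat.card S ≠ 0 := Nat.card_pos.ne'
    have hd : 13 ∣ Nat.card S := by rw [← hxs]; exact orderOf_dvd_natCard xs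
    have h1 : 1 ≤ (Nat.card S).factorization 13 :=
      (Nat.Prime.dvd_iff_one_le_factorization (by norm_num) hne).mp hd
    have h2 : ¬ 2 ≤ (Nat.card S).factorization 13 := by
      intro h2
      apply h13
      have h3 : 13 ^ 2 ∣ Nat.card S :=
        (Nat.Prime.pow_dvd_iff_le_factorization (by norm_num) hne).mpr h2
      exact h3.trans (Subgroup.card_subgroup_dvd_card S)
    omega
  let P₁ : Sylow 13 S := Sylow.ofCard (Subgroup.zpowers xs)
    (by rw [Nat.card_zpowers, hxs, hcardS, pow_one])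
  let P₂ : Sylow 13 S := Sylow.ofCard (Subgroup.zpowers ys)
    (by rw [Nat.card_zpowers, hys, hcardS, pow_one])
  obtain ⟨c, hc⟩ := MulAction.exists_smul_eq S P₂ P₁
  have hmem : c * ys * c⁻¹ ∈ (P₁ : Subgroup S) := by
    rw [← hc, Sylow.coe_subgroup_smul, Subgroup.mem_pointwise_smul_iff_inv_smul_mem]
    rw [MulAut.smul_def, MulAut.conj_inv_apply]
    have : c⁻¹ * (c * ys * c⁻¹) * c = ys := by group
    rw [this]
    exact Subgroup.mem_zpowers ys
  have hmem' : c * ys * c⁻¹ ∈ Subgroup.zpowers xs := hmem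
  obtain ⟨k, hk⟩ := Subgroup.mem_zpowers_iff.mp hmem'
  refine ⟨(c : G) * h'⁻¹, ?_, ?_⟩
  · rw [Subgroup.mem_zpowers_iff]
    refine ⟨k, ?_⟩
    have hk' : (x : G) ^ k = (c : G) * (h'⁻¹ * x * h') * (c : G)⁻¹ := by
      have := congrArg (Subtype.val : S → G) hk
      simpa [xs, ys] using this
    rw [hk']; group
  · rw [mul_smul]
    have h1 : h'⁻¹ • α = β := by rw [← hh', inv_smul_smul]
    rw [h1]
    exact c.2

theorem main : Cfsg.Agent.Lib.Helper61.T2Stmt.SylFix.{u, v} := by
  intro G _ _ Ω _ _ htr x hx h13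
  refine ⟨fun α β hα hβ => part1 htr x hx h13 α β hα hβ, ?_⟩
  rintro ⟨α, hα⟩
  -- N = normalizer of <x>; Fix(x) is the N-orbit of α
  let N := Subgroup.normalizer ((Subgroup.zpowers x : Subgroup G) : Set G)
  have horb : ∀ ω : Ω, x • ω = ω ↔ ω ∈ MulAction.orbit N α := by
    intro ω
    constructor
    · intro hω
      obtain ⟨g, hg1, hg2⟩ := part1 htr x hx h13 α ω hα hω
      exact ⟨⟨g, mem_normalizer_of_conj_mem x g hg1⟩, hg2⟩
    · rintro ⟨g, rfl⟩
      have hg := g.2
      have h1 : (g : G)⁻¹ * x * (g : G) ∈ Subgroup.zpowers x := by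
        have := (Subgroup.mem_normalizer_iff.mp hg ((g : G)⁻¹ * x * (g : G))).mpr
          (by
            have : (g : G) * ((g : G)⁻¹ * x * (g : G)) * (g : G)⁻¹ = x := by group
            rw [this]; exact Subgroup.mem_zpowers x)
        exact this
      obtain ⟨k, hk⟩ := Subgroup.mem_zpowers_iff.mp h1
      have h2 : ((g : G)⁻¹ * x * (g : G)) • α = α := by
        rw [← hk]
        have hxa : x ∈ MulAction.stabilizer G α := hα
        exact (MulAction.stabilizer G α).zpow_mem hxa k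
      show x • ((g : G) • α) = (g : G) • α
      calc x • ((g : G) • α) = (g : G) • (((g : G)⁻¹ * x * (g : G)) • α) := by
            rw [← mul_smul, ← mul_smul]; congr 1; group
        _ = (g : G) • α := by rw [h2]
  have hcard : Nat.card {ω : Ω // x • ω = ω} = Nat.card (MulAction.orbit N α) := by
    apply Nat.card_congr
    exact Equiv.subtypeEquivRight horb
  rw [hcard]
  have h2 : Nat.card (MulAction.orbit N α) ∣ Nat.card N := by
    rw [Nat.card_congr (MulAction.orbitEquivQuotientStabilizer N α)]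
    exact Subgroup.card_quotient_dvd_card _
  exact h2.trans (Subgroup.card_subgroup_dvd_card N)

end Cfsg.Agent.Lib.Helper21.T2SYLFIX
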